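import Mathlib

/-!
# The algebra behind the exceptional characters of a group with a subgroup `3^3 : S_4`

`alg_norm`: the equations of the class sums in the natural case have only one solution.
-/

set_option autoImplicit false

namespace Cfsg.Agent.H431.Alt

variable {F : Type*} [Field F] [CharZero F]

/-- first part: from the equations to polynomial relations -/
theorem alg_core {m X s n c y t p : F} (hX : X ≠ 0) (hn0 : n ≠ 0) (hm1 : m - 1 ≠ 0)
    (hn : n = m ^ 2 - X ^ 2)
    (hI : (m - 1) * (4 * y * m - 4 * c + m) = X * (X + 5))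
    (hc : c ^ 2 = n * y) (hs : s = 2 * m * c - n) (hp : p = 3 * X + 2 * c - m)
    (hts : t * s = n * p)
    (ht2 : t ^ 2 = n * (m + 5 * X - 4 * (1 - y) * (m - 1)))
    (hIII : n + (m + 5 * X - 4 * (1 - y) * (m - 1)) - 2 * t =
      4 * (m - 1) * ((1 - y) * (m - 1) - X)) (hc0 : c ≠ 0) : m = 9 ∧ X = 3 ∧ c = 6 := by
  -- the square of `s`
  have hs2 : (m - 1) * s ^ 2 = n * X * (X + 5 * m) := by
    have e1 : s ^ 2 = n * (4 * m ^ 2 * y - 4 * m * c + n) := by
      rw [hs]; linear_combination 4 * m ^ 2 * hc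
    rw [e1]
    have e2 : (m - 1) * (4 * m ^ 2 * y - 4 * m * c + n) = X * (X + 5 * m) := by
      rw [hn]; linear_combination m * hI
    linear_combination n * e2
  have hts' : 2 * t = n + m + 5 * X + 4 * X * (m - 1) - 5 * m * (m - 1) + X * (X + 5) +
      4 * c * (m - 1) := by
    linear_combination -hIII + hI
  -- `m ≠ 0`
  have hm0 : m ≠ 0 := by
    intro h0
    rw [h0] at hs hp hts' hn
    have e1 : n = - X ^ 2 := by rw [hn]; ring
    have e2 : X ^ 2 * (t + p) = 0 := by
      have e3 : s = X ^ 2 := by rw [hs, e1]; ring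
      rw [e3, e1] at hts
      linear_combination hts
    have e3 : t + p = 0 := by
      rcases mul_eq_zero.1 e2 with h | h
      · exact absurd (pow_eq_zero_iff (two_ne_zero) |>.1 h) hX
      · exact h
    have e4 : 12 * X = 0 := by
      rw [hp] at e3
      rw [e1] at hts'
      linear_combination 2 * e3 - hts'
    exact hX ((mul_eq_zero.1 e4).resolve_left (by norm_num))
  -- the equation `E3`
  have hmp : m * p = X * (3 * m - X) + s := by
    rw [hp, hs, hn]; ring
  have hmt : m * t = m * (-2 * m ^ 2 + 3 * m + 3 * X + 2 * X * m) + (m - 1) * (s + n) := by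
    have e1 : 2 * (m * t - (m * (-2 * m ^ 2 + 3 * m + 3 * X + 2 * X * m) + (m - 1) * (s + n))) = 0 := by
      have e2 : 4 * c * m = 2 * (s + n) := by rw [hs]; ring
      rw [hn] at hts' e2 ⊢
      linear_combination m * hts' + (m - 1) * e2
    have e3 := (mul_eq_zero.1 e1).resolve_left (by norm_num)
    linear_combination e3
  have hE3 : s * (m * (m - X) ^ 2 - (m + X) * (m + 2 * X)) = 2 * n * X * (m + X) := by
    have e1 : m * t * s = n * (X * (3 * m - X) + s) := by
      rw [← hmp]; linear_combination m * hts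
    rw [hmt] at e1
    have e2 : s * m * (-2 * m ^ 2 + 3 * m + 3 * X + 2 * X * m) + n * X * (X + 5 * m) + (m - 1) * n * s
        = n * (X * (3 * m - X) + s) := by
      linear_combination e1 - hs2
    have e3 : s * (m * (-2 * m ^ 2 + 3 * m + 3 * X + 2 * X * m) + (m - 2) * n) =
        -(2 * n * X * (m + X)) := by
      linear_combination e2
    have e4 : m * (-2 * m ^ 2 + 3 * m + 3 * X + 2 * X * m) + (m - 2) * n =
        -(m * (m - X) ^ 2 - (m + X) * (m + 2 * X)) := by
      rw [hn]; ring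
    rw [e4] at e3
    linear_combination -e3
  -- the equation `E2`
  have hE2 : (m + 5 * X - 4 * (1 - y) * (m - 1)) * (X * (X + 5 * m)) = (m - 1) * p ^ 2 := by
    have e1 : n ^ 2 * ((m + 5 * X - 4 * (1 - y) * (m - 1)) * (X * (X + 5 * m)) - (m - 1) * p ^ 2) = 0 := by
      have e2 : t ^ 2 * s ^ 2 = n ^ 2 * p ^ 2 := by
        rw [← mul_pow, hts]; ring
      rw [ht2] at e2
      linear_combination (m - 1) * e2 - n * (m + 5 * X - 4 * (1 - y) * (m - 1)) * hs2
    have e3 := (mul_eq_zero.1 e1).resolve_left (pow_ne_zero 2 hn0)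
    linear_combination e3
  have hme : m ^ 2 * (m + 5 * X - 4 * (1 - y) * (m - 1)) =
      m * (-4 * m ^ 2 + 5 * m + 5 * X * m + X ^ 2 + 5 * X) + 2 * (m - 1) * (s + n) := by
    rw [hs, hn]
    linear_combination m * hI
  have hE2' : 2 * (m - 1) * (m + X) * s = 5 * m ^ 4 - 7 * m ^ 3 * X - 3 * m ^ 2 * X ^ 2 + m * X ^ 3
      - 5 * m ^ 3 - 18 * m ^ 2 * X - 7 * m * X ^ 2 - 2 * X ^ 3 := by
    have e1 : (m * (-4 * m ^ 2 + 5 * m + 5 * X * m + X ^ 2 + 5 * X) + 2 * (m - 1) * (s + n)) *
        (X * (X + 5 * m)) = (m - 1) * (X * (3 * m - X) + s) ^ 2 := by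
      rw [← hme, ← hmp]
      linear_combination m ^ 2 * hE2
    have e2 : 2 * X * (2 * (m - 1) * (m + X) * s - (5 * m ^ 4 - 7 * m ^ 3 * X - 3 * m ^ 2 * X ^ 2 + m * X ^ 3
      - 5 * m ^ 3 - 18 * m ^ 2 * X - 7 * m * X ^ 2 - 2 * X ^ 3)) = 0 := by
      rw [hn] at e1 hs2
      linear_combination e1 + hs2
    have e3 := (mul_eq_zero.1 e2).resolve_left (mul_ne_zero (by norm_num) hX)
    linear_combination e3
  -- comparison
  have hcomp : (X + 5 * m) * (m * (m - X) ^ 2 - (m + X) * (m + 2 * X)) = 2 * (m - 1) * (m + X) * s := by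
    have e1 : (n * X) * ((X + 5 * m) * (m * (m - X) ^ 2 - (m + X) * (m + 2 * X)) -
        2 * (m - 1) * (m + X) * s) = 0 := by
      linear_combination (m - 1) * s * hE3 - (m * (m - X) ^ 2 - (m + X) * (m + 2 * X)) * hs2
    have e3 := (mul_eq_zero.1 e1).resolve_left (mul_ne_zero hn0 hX)
    linear_combination e3
  have hm3 : m = 3 * X := by
    have e1 : (2 * m * X * (m - 1)) * (m - 3 * X) = 0 := by
      linear_combination -hcomp - hE2'
    have e2 := (mul_eq_zero.1 e1).resolve_left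
      (mul_ne_zero (mul_ne_zero (mul_ne_zero (by norm_num) hm0) hX) hm1)
    linear_combination e2
  -- the final quadratic equation
  have hn' : n = 8 * X ^ 2 := by rw [hn, hm3]; ring
  have hsX : s * (3 * X - 5) = 16 * X ^ 2 := by
    have e1 : (4 * X ^ 2) * (s * (3 * X - 5) - 16 * X ^ 2) = 0 := by
      rw [hm3, hn'] at hE3
      linear_combination hE3
    have e2 := (mul_eq_zero.1 e1).resolve_left (mul_ne_zero (by norm_num) (pow_ne_zero 2 hX))
    linear_combination e2
  have hs2' : (3 * X - 1) * s ^ 2 = 128 * X ^ 4 := by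
    rw [hm3, hn'] at hs2
    linear_combination hs2
  have hq : (X - 1) * (X - 3) = 0 := by
    have e1 : (1152 * X ^ 4) * ((X - 1) * (X - 3)) = 0 := by
      linear_combination (3 * X - 1) * (s * (3 * X - 5) + 16 * X ^ 2) * hsX - (3 * X - 5) ^ 2 * hs2'
    exact (mul_eq_zero.1 e1).resolve_left (mul_ne_zero (by norm_num) (pow_ne_zero 4 hX))
  rcases mul_eq_zero.1 hq with h | h
  · exfalso
    have hX1 : X = 1 := by linear_combination h
    rw [hX1] at hm3 hn' hsX
    have e1 : s = -8 := by linear_combination -hsX / 2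
    rw [e1, hn', hm3] at hs
    apply hc0
    linear_combination -hs / 6
  · have hX3 : X = 3 := by linear_combination h
    rw [hX3] at hm3 hn' hsX
    have e1 : s = 36 := by linear_combination hsX / 4
    rw [e1, hn', hm3] at hs
    refine ⟨by rw [hm3]; norm_num, hX3, ?_⟩
    linear_combination -hs / 18

/-- The natural case, normalized. -/
theorem alg_norm {D X Y Z C T W ε G E K : F} (hD : D ≠ 0) (hX : X ≠ 0) (hY : Y ≠ 0) (hZ : Z ≠ 0)
    (hC : C ≠ 0) (hT : T ≠ 0) (hW : W ≠ 0) (eZ : Z = X + Y) (eC : C = D + Z)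
    (eT : T = 1 + D + Y) (eW : W = 1 + D + 2 * X + Y)
    (b1 : G ^ 2 / D - G ^ 2 / C = 2) (p1 : ε ^ 2 + G ^ 2 / C - (ε + G) ^ 2 / T = 0)
    (r1 : ε ^ 2 + G ^ 2 / C - (ε + G) ^ 2 / W = 1)
    (a3 : K ^ 2 / X + K ^ 2 / Y = 2)
    (p3 : E ^ 2 - K ^ 2 / X - (E - K) ^ 2 / T = 2)
    (p2 : ε * E - (ε + G) * (E - K) / T = 2)
    (r2 : ε * E - (ε + G) * (E + K) / W = 1) : D = 2 ∧ G = 2 * ε := by
  -- the variables of `alg_core`
  obtain ⟨m, hm⟩ : ∃ m, m = 1 + C := ⟨_, rfl⟩
  obtain ⟨a, ha⟩ : ∃ a, a = ε + G := ⟨_, rfl⟩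
  obtain ⟨y, hy⟩ : ∃ y, y * Z = Y := ⟨Y / Z, div_mul_cancel₀ _ hZ⟩
  have hTm : T = m - X := by rw [eT, hm, eC, eZ]; ring
  have hWm : W = m + X := by rw [eW, hm, eC, eZ]; ring
  have hDm : D = m - 1 - Z := by rw [hm, eC]; ring
  have hXy : (1 - y) * Z = X := by linear_combination eZ - hy
  rw [← ha] at p1 r1 p2 r2
  field_simp at b1 p1 r1 a3 p3 p2 r2
  have b1' : G ^ 2 * Z = 2 * D * C := by linear_combination b1 - G ^ 2 * eC
  subst hTm hWm
  have H1 : 2 * X * a ^ 2 = (m - X) * (m + X) := by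
    have e1 : C * (2 * X * a ^ 2 - (m - X) * (m + X)) = 0 := by
      linear_combination (m - X) * r1 - (m + X) * p1
    have e2 := (mul_eq_zero.1 e1).resolve_left hC
    linear_combination e2
  have H2 : K ^ 2 = 2 * X * y := by
    have e1 : Z * (K ^ 2 - 2 * X * y) = 0 := by
      linear_combination a3 + K ^ 2 * eZ - 2 * X * hy
    have e2 := (mul_eq_zero.1 e1).resolve_left hZ
    linear_combination e2
  have ha0 : a ≠ 0 := by
    intro h
    rw [h] at H1
    exact mul_ne_zero hT hW (by linear_combination -H1)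
  have H3 : m * K = X * (a + E) := by
    have e1 : (2 * a) * (m * K - X * (a + E)) = 0 := by
      linear_combination (m + X) * p2 - (m - X) * r2 - H1
    have e2 := (mul_eq_zero.1 e1).resolve_left (mul_ne_zero (by norm_num) ha0)
    linear_combination e2
  have hK0 : K ≠ 0 := by
    intro h
    rw [h] at a3
    exact mul_ne_zero (mul_ne_zero (by norm_num : (2 : F) ≠ 0) hX) hY (by linear_combination -a3)
  have hc0 : a * K ≠ 0 := mul_ne_zero ha0 hK0
  have hn0 : m ^ 2 - X ^ 2 ≠ 0 := by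
    have : m ^ 2 - X ^ 2 = (m - X) * (m + X) := by ring
    rw [this]
    exact mul_ne_zero hT hW
  have hm1 : m - 1 ≠ 0 := by rw [hm]; simpa using hC
  have hc : (a * K) ^ 2 = (m ^ 2 - X ^ 2) * y := by
    linear_combination a ^ 2 * H2 + y * H1
  have hXE : X * E = m * K - X * a := by linear_combination -H3
  -- the equation `I`
  have hI : (m - 1) * (4 * y * m - 4 * (a * K) + m) = X * (X + 5) := by
    have e1 : (m - X) * X * ((m - 1) * (4 * y * m - 4 * (a * K) + m) - X * (X + 5)) = 0 := by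
      have e2 : (m * K - X * a) ^ 2 * (m - X) - X * K ^ 2 * (m - X) - ((m - X) * K - X * a) ^ 2 =
          2 * X ^ 2 * (m - X) := by
        linear_combination X * p3 + ((X * E + m * K - X * a) * (m - X) -
          (X * E + m * K - X * a - 2 * X * K)) * (-hXE)
      linear_combination 2 * e2 - X * (m - X - 1) * H1 - 2 * (m - X) * m * (m - 1) * H2
    have e3 := (mul_eq_zero.1 e1).resolve_left (mul_ne_zero hT hX)
    linear_combination e3
  -- `2 X ε E`
  have hp : 2 * X * ε * E = 3 * X + 2 * (a * K) - m := by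
    have e1 : (m - X) * (2 * X * ε * E - (3 * X + 2 * (a * K) - m)) = 0 := by
      linear_combination 2 * X * p2 + 2 * a * hXE - H1
    have e3 := (mul_eq_zero.1 e1).resolve_left hT
    linear_combination e3
  have hs : 2 * X * a * E = 2 * m * (a * K) - (m ^ 2 - X ^ 2) := by
    linear_combination 2 * a * hXE - H1
  have he : 2 * X * ε ^ 2 = m + 5 * X - 4 * (1 - y) * (m - 1) := by
    have e1 : C * ((m - X) * (Z * (2 * X * ε ^ 2 - (m + 5 * X - 4 * (1 - y) * (m - 1))))) = 0 := by
      linear_combination 2 * X * Z * p1 - 2 * X * (m - X) * b1' + C * Z * H1 +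
        4 * C * (m - X) * (m - 1) * hXy - 4 * X * C * (m - X) * hDm
    have e2 := (mul_eq_zero.1 e1).resolve_left hC
    have e3 := (mul_eq_zero.1 e2).resolve_left hT
    have e4 := (mul_eq_zero.1 e3).resolve_left hZ
    linear_combination e4
  have hg : 2 * X * G ^ 2 = 4 * (m - 1) * ((1 - y) * (m - 1) - X) := by
    have e1 : Z * (2 * X * G ^ 2 - 4 * (m - 1) * ((1 - y) * (m - 1) - X)) = 0 := by
      linear_combination 2 * X * b1' - 4 * (m - 1) ^ 2 * hXy + 4 * X * C * hDm -
        4 * X * (m - 1 - Z) * hm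
    have e4 := (mul_eq_zero.1 e1).resolve_left hZ
    linear_combination e4
  obtain ⟨r1', r2', r3'⟩ := alg_core (m := m) (X := X) (s := 2 * X * a * E) (n := m ^ 2 - X ^ 2)
    (c := a * K) (y := y) (t := 2 * X * a * ε) (p := 2 * X * ε * E) hX hn0 hm1 rfl hI hc hs hp
    (by linear_combination 2 * X * ε * E * H1)
    (by linear_combination 2 * X * a ^ 2 * he + (m + 5 * X - 4 * (1 - y) * (m - 1)) * H1)
    (by
      have : G = a - ε := by rw [ha]; ring
      rw [this] at hg
      linear_combination hg - H1 - he) hc0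
  rw [r1', r2', r3'] at hc
  rw [r1', r2', r3'] at hs hp
  rw [r2'] at hXy
  rw [r1'] at hDm
  have hy' : y = 1 / 2 := by linear_combination -hc / 72
  rw [hy'] at hXy
  have hZ' : Z = 6 := by linear_combination 2 * hXy
  refine ⟨by rw [hDm, hZ']; norm_num, ?_⟩
  have h6 : a = 3 * ε := by linear_combination (ε / 12) * hs - (a / 12) * hp
  linear_combination h6 - ha

/-- The excluded cases, normalized: two reciprocals of nonzero integers are small. -/
theorem int_inv_bound {C D : ℤ} (hC : C ≠ 0) (hD : D ≠ 0) : (1 : ℚ) / C + 3 / D ≠ 8 ∧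
    (1 : ℚ) / C + 1 / D ≠ 4 := by
  have h1 : ∀ z : ℤ, z ≠ 0 → (1 : ℚ) / z ≤ 1 := by
    intro z hz
    rcases lt_or_gt_of_ne hz with h | h
    · have : (1 : ℚ) / z ≤ 0 := by
        apply div_nonpos_of_nonneg_of_nonpos (by norm_num)
        exact_mod_cast h.le
      linarith
    · rw [div_le_one (by exact_mod_cast h)]
      exact_mod_cast h
  have e1 := h1 C hC
  have e2 := h1 D hD
  have e3 : (3 : ℚ) / D = 3 * (1 / D) := by ring
  constructor
  · rw [e3]; intro h; linarith
  · intro h; linarith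

end Cfsg.Agent.H431.Alt
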