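import Mathlib

/-!
# The rotation group of the cube as a group of signed permutations
-/

set_option autoImplicit false

namespace Cfsg.Agent.H431.Alt

open Equiv Equiv.Perm

/-- signed permutations of `Fin 3` -/
@[ext]
structure SP where
  e : Fin 3 → ℤˣ
  p : Perm (Fin 3)

namespace SP

instance : Mul SP := ⟨fun x y => ⟨fun j => x.e j * y.e (x.p⁻¹ j), x.p * y.p⟩⟩
instance : One SP := ⟨⟨fun _ => 1, 1⟩⟩
instance : Inv SP := ⟨fun x => ⟨fun j => x.e (x.p j), x.p⁻¹⟩⟩

theorem mul_e (x y : SP) (j : Fin 3) : (x * y).e j = x.e j * y.e (x.p⁻¹ j) := rfl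
theorem mul_p (x y : SP) : (x * y).p = x.p * y.p := rfl
theorem one_e (j : Fin 3) : (1 : SP).e j = 1 := rfl
theorem one_p : (1 : SP).p = 1 := rfl
theorem inv_e (x : SP) (j : Fin 3) : (x⁻¹).e j = x.e (x.p j) := rfl
theorem inv_p (x : SP) : (x⁻¹).p = x.p⁻¹ := rfl

instance : Group SP := Group.ofLeftAxioms
  (by
    intro x y z
    ext1
    · funext j
      simp only [mul_e, mul_p, mul_inv_rev, Perm.mul_apply, mul_assoc]
    · simp only [mul_p, mul_assoc])
  (by
    intro x
    ext1
    · funext j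
      simp [mul_e, one_e, one_p]
    · simp [mul_p, one_p])
  (by
    intro x
    ext1
    · funext j
      simp only [mul_e, inv_e, inv_p, inv_inv, one_e]
      exact Int.units_mul_self _
    · simp [mul_p, inv_p, one_p])

/-- the determinant -/
def det : SP →* ℤˣ where
  toFun x := (x.e 0 * x.e 1 * x.e 2) * sign x.p
  map_one' := by simp [one_e, one_p]
  map_mul' x y := by
    have h : (x * y).e 0 * (x * y).e 1 * (x * y).e 2 = (x.e 0 * x.e 1 * x.e 2) * (y.e 0 * y.e 1 * y.e 2) := by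
      have h1 : ∏ j, y.e (x.p⁻¹ j) = ∏ j, y.e j := Equiv.prod_comp (x.p⁻¹) y.e
      rw [Fin.prod_univ_three, Fin.prod_univ_three] at h1
      simp only [mul_e]
      rw [← h1]
      ac_rfl
    rw [h, mul_p, Perm.sign_mul]
    ac_rfl

/-- the equivalence with a product type -/
def equivProd : SP ≃ (Fin 3 → ℤˣ) × Perm (Fin 3) where
  toFun x := (x.e, x.p)
  invFun p := ⟨p.1, p.2⟩
  left_inv _ := rfl
  right_inv _ := rfl

instance : DecidableEq SP := fun x y =>
  decidable_of_iff (x.e = y.e ∧ x.p = y.p) ⟨fun h => SP.ext h.1 h.2, fun h => by rw [h]; exact ⟨rfl, rfl⟩⟩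

instance : Fintype SP := Fintype.ofEquiv _ equivProd.symm

/-- the action on `𝔽₃³` -/
instance : SMul SP (Fin 3 → ZMod 3) := ⟨fun x u j => ((x.e j : ℤ) : ZMod 3) * u (x.p⁻¹ j)⟩

theorem smul_apply (x : SP) (u : Fin 3 → ZMod 3) (j : Fin 3) :
    (x • u) j = ((x.e j : ℤ) : ZMod 3) * u (x.p⁻¹ j) := rfl

instance : DistribMulAction SP (Fin 3 → ZMod 3) where
  one_smul u := by funext j; simp [smul_apply, one_e, one_p]
  mul_smul x y u := by
    funext j
    simp only [smul_apply, mul_e, mul_p, mul_inv_rev, Perm.mul_apply]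
    push_cast
    ring
  smul_zero x := by funext j; simp [smul_apply]
  smul_add x u v := by funext j; simp [smul_apply, mul_add]

end SP

/-- the rotation group -/
abbrev Q : Type := {x : SP // x ∈ SP.det.ker}

instance : DecidablePred (fun x : SP => x ∈ SP.det.ker) := fun x =>
  decidable_of_iff (SP.det x = 1) MonoidHom.mem_ker.symm

example : Group Q := inferInstance
example : Fintype Q := inferInstance
example : DecidableEq Q := inferInstance
example : DistribMulAction Q (Fin 3 → ZMod 3) := inferInstance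

/-- rotation about the first axis -/
def w0 : Q := ⟨⟨![1, 1, -1], swap 1 2⟩, by decide⟩
/-- rotation of order 3 -/
def s0 : Q := ⟨⟨![1, 1, 1], finRotate 3⟩, by decide⟩
/-- rotation of order 2 about an edge -/
def t0 : Q := ⟨⟨![1, 1, -1], swap 0 1⟩, by decide⟩
/-- flip -/
def v0 : Q := ⟨⟨![1, -1, -1], 1⟩, by decide⟩

theorem card_Q : Fintype.card Q = 24 := by decide +kernel

/-- the cyclic groups -/
def cU : Fin 4 → Q := ![1, w0, w0 * w0, w0 * w0 * w0]
def cV : Fin 3 → Q := ![1, s0, s0 * s0]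
def cT : Fin 2 → Q := ![1, t0]

/-- the fixed linear forms -/
def lU : Fin 3 → ZMod 3 := ![1, 0, 0]
def lV : Fin 3 → ZMod 3 := ![1, 1, 1]
def lT : Fin 3 → ZMod 3 := ![1, 1, 0]

/-- the coefficients of the Gram matrix -/
def W {m n : ℕ} (c : Fin m → Q) (l : Fin 3 → ZMod 3) (c' : Fin n → Q) (l' : Fin 3 → ZMod 3)
    (k : Fin m) (j : Fin n) : ℕ :=
  ∑ N : Q, if N⁻¹ * c k * N = c' j then (if l = N • l' then 2 else 1) else 0

end Cfsg.Agent.H431.Alt
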