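import Mathlib
import Cfsg.Agent.H431.ExcChar
import Cfsg.Agent.Characters.Linear

/-!
# Induced characters of a semidirect product `V ⋊ Q`

`V` is an additive group with an action of `Q`, `λ` an additive character of `V`, `C ≤ Q` a
subgroup stabilizing `λ` and `ψ` a linear character of `C`. We consider the character of `V ⋊ Q`
induced from `(1 - λ) ψ` on `V ⋊ C`, its inner products and its sums over classes.
-/

set_option autoImplicit false

open Cfsg

namespace Cfsg.Agent.H431.Alt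

open Cfsg.Agent.Characters.Core Cfsg.Agent.OddOrderCharacters.VChar
open Cfsg.Agent.H431.ExcChar Cfsg.Agent.OddOrderCharacters.IndRes

open scoped ComplexConjugate

/-- the semidirect product -/
@[ext]
structure Sd (V Q : Type*) where
  u : V
  M : Q
deriving DecidableEq

namespace Sd

variable {V Q : Type*} [AddCommGroup V] [Group Q] [DistribMulAction Q V]

instance : Mul (Sd V Q) := ⟨fun x y => ⟨x.u + x.M • y.u, x.M * y.M⟩⟩
instance : One (Sd V Q) := ⟨⟨0, 1⟩⟩
instance : Inv (Sd V Q) := ⟨fun x => ⟨-(x.M⁻¹ • x.u), x.M⁻¹⟩⟩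

@[simp] theorem mul_u (x y : Sd V Q) : (x * y).u = x.u + x.M • y.u := rfl
@[simp] theorem mul_M (x y : Sd V Q) : (x * y).M = x.M * y.M := rfl
omit [DistribMulAction Q V] in
@[simp] theorem one_u : (1 : Sd V Q).u = 0 := rfl
omit [DistribMulAction Q V] in
@[simp] theorem one_M : (1 : Sd V Q).M = 1 := rfl
@[simp] theorem inv_u (x : Sd V Q) : (x⁻¹).u = -(x.M⁻¹ • x.u) := rfl
@[simp] theorem inv_M (x : Sd V Q) : (x⁻¹).M = x.M⁻¹ := rfl

instance : Group (Sd V Q) := Group.ofLeftAxioms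
  (by intro x y z; ext1 <;> simp [mul_smul, smul_add, add_assoc, mul_assoc])
  (by intro x; ext1 <;> simp)
  (by intro x; ext1 <;> simp)

/-- the equivalence with the product type -/
def equivProd : Sd V Q ≃ V × Q where
  toFun x := (x.u, x.M)
  invFun p := ⟨p.1, p.2⟩
  left_inv _ := rfl
  right_inv _ := rfl

instance [Fintype V] [Fintype Q] : Fintype (Sd V Q) := Fintype.ofEquiv _ equivProd.symm

omit [AddCommGroup V] [Group Q] [DistribMulAction Q V] in
theorem sum_eq [Fintype V] [Fintype Q] {A : Type*} [AddCommMonoid A] (F : Sd V Q → A) :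
    ∑ x, F x = ∑ M : Q, ∑ u : V, F ⟨u, M⟩ := by
  rw [← equivProd.symm.sum_comp F, Fintype.sum_prod_type_right]
  rfl

omit [AddCommGroup V] [Group Q] [DistribMulAction Q V] in
theorem card_eq [Fintype V] [Fintype Q] : Nat.card (Sd V Q) = Nat.card V * Nat.card Q := by
  rw [Nat.card_congr equivProd, Nat.card_prod]

theorem conj_eq (x y : Sd V Q) : x⁻¹ * y * x =
    ⟨x.M⁻¹ • (y.u + y.M • x.u - x.u), x.M⁻¹ * y.M * x.M⟩ := by
  ext1
  · simp only [mul_u, inv_u, mul_M, inv_M, smul_sub, smul_add, mul_smul]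
    abel
  · simp

/-- the projection -/
def proj : Sd V Q →* Q where
  toFun x := x.M
  map_one' := rfl
  map_mul' _ _ := rfl

@[simp] theorem proj_apply (x : Sd V Q) : proj x = x.M := rfl

/-- the subgroup `V ⋊ C` -/
def SC (C : Subgroup Q) : Subgroup (Sd V Q) := C.comap proj

theorem mem_SC {C : Subgroup Q} {x : Sd V Q} : x ∈ (SC C : Subgroup (Sd V Q)) ↔ x.M ∈ C := Iff.rfl

theorem card_SC [Finite V] [Finite Q] (C : Subgroup Q) :
    Nat.card (SC C : Subgroup (Sd V Q)) = Nat.card V * Nat.card C := by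
  rw [← Nat.card_prod]
  exact Nat.card_congr
    { toFun := fun x => (x.1.u, ⟨x.1.M, x.2⟩)
      invFun := fun p => ⟨⟨p.1, p.2.1⟩, p.2.2⟩
      left_inv := fun _ => rfl
      right_inv := fun _ => rfl }

end Sd

section

variable {V Q : Type} [AddCommGroup V] [Group Q] [DistribMulAction Q V]

/-- a linear character `χ` of `C`, extended by zero, and a character of `V` stabilized by `C` -/
structure LinDat (lam : AddChar V ℂ) (C : Subgroup Q) (χ : Q → ℂ) : Prop where
  stab : ∀ M ∈ C, ∀ u : V, lam (M • u) = lam u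
  out : ∀ M, M ∉ C → χ M = 0
  mul : ∀ M ∈ C, ∀ N ∈ C, χ (M * N) = χ M * χ N
  one : χ 1 = 1

/-- the function `(1 - λ) χ` -/
noncomputable def af (lam : AddChar V ℂ) (χ : Q → ℂ) (x : Sd V Q) : ℂ := (1 - lam x.u) * χ x.M

variable {lam mu : AddChar V ℂ} {C C' : Subgroup Q} {χ χ' : Q → ℂ}

theorem LinDat.gen (h : LinDat lam C χ) :
    IsGeneralizedCharacter (Sd.SC C : Subgroup (Sd V Q)) (fun x => af lam χ x) := by
  let f1 : (Sd.SC C : Subgroup (Sd V Q)) →* ℂ :=
    { toFun := fun x => χ x.1.M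
      map_one' := h.one
      map_mul' := fun x y => h.mul _ x.2 _ y.2 }
  let f2 : (Sd.SC C : Subgroup (Sd V Q)) →* ℂ :=
    { toFun := fun x => lam x.1.u * χ x.1.M
      map_one' := by
        show lam 0 * χ 1 = 1
        rw [AddChar.map_zero_eq_one, h.one, one_mul]
      map_mul' := fun x y => by
        show lam (x.1.u + x.1.M • y.1.u) * χ (x.1.M * y.1.M) = _
        rw [AddChar.map_add_eq_mul, h.stab _ (Sd.mem_SC.1 x.2), h.mul _ (Sd.mem_SC.1 x.2) _ (Sd.mem_SC.1 y.2)]
        ring }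
  have e : (fun x : (Sd.SC C : Subgroup (Sd V Q)) => af lam χ x) =
      (fun x => ((f1.toHomUnits x : ℂˣ) : ℂ)) - (fun x => ((f2.toHomUnits x : ℂˣ) : ℂ)) := by
    funext x
    show (1 - lam x.1.u) * χ x.1.M = χ x.1.M - lam x.1.u * χ x.1.M
    ring
  rw [e]
  exact gen_sub (gen_of_irr (Cfsg.Agent.Characters.Linear.isIrrCharacter_hom _))
    (gen_of_irr (Cfsg.Agent.Characters.Linear.isIrrCharacter_hom _))

theorem LinDat.extend (h : LinDat lam C χ) (x : Sd V Q) :
    extendByZero (Sd.SC C) (fun x => af lam χ x) x = af lam χ x := by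
  by_cases hx : x ∈ (Sd.SC C : Subgroup (Sd V Q))
  · rw [extendByZero_of_mem _ _ hx]
  · rw [extendByZero_of_notMem _ _ hx, af, h.out _ (fun h' => hx (Sd.mem_SC.2 h')), mul_zero]

variable [Fintype V] [Fintype Q]

/-- the induced generalized character -/
noncomputable def th (lam : AddChar V ℂ) (C : Subgroup Q) (χ : Q → ℂ) : Sd V Q → ℂ :=
  indFun (Sd.SC C) (fun x => af lam χ x)

theorem LinDat.gen_th (h : LinDat lam C χ) : IsGeneralizedCharacter (Sd V Q) (th lam C χ) :=
  isGeneralizedCharacter_indFun _ h.gen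

theorem LinDat.th_apply (h : LinDat lam C χ) (y : Sd V Q) :
    th lam C χ y = ((Nat.card V : ℂ) * Nat.card C)⁻¹ * ∑ x : Sd V Q, af lam χ (x⁻¹ * y * x) := by
  rw [th, indFun_apply, Sd.card_SC]
  push_cast
  congr 1
  exact Finset.sum_congr rfl fun x _ => h.extend _

omit [Fintype Q] in
theorem LinDat.af_conj (h' : LinDat mu C' χ') (M N : Q) (u z : V) :
    af mu χ' ((⟨z, N⟩ : Sd V Q)⁻¹ * ⟨u, M⟩ * ⟨z, N⟩) = (1 - mu (N⁻¹ • u)) * χ' (N⁻¹ * M * N) := by
  rw [Sd.conj_eq, af]
  by_cases hM : N⁻¹ * M * N ∈ C'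
  · congr 2
    show mu (N⁻¹ • (u + M • z - z)) = mu (N⁻¹ • u)
    have e1 : N⁻¹ • (u + M • z - z) = N⁻¹ • u + (N⁻¹ * M * N) • (N⁻¹ • z) - N⁻¹ • z := by
      rw [smul_sub, smul_add, smul_smul, smul_smul]
      congr 2
      rw [mul_assoc, mul_assoc, mul_inv_cancel, mul_one]
    rw [e1, AddChar.map_sub_eq_div, AddChar.map_add_eq_mul, h'.stab _ hM, mul_div_assoc, div_self, mul_one]
    intro h0
    have := AddChar.map_add_eq_mul mu (N⁻¹ • z) (-(N⁻¹ • z))
    rw [add_neg_cancel, AddChar.map_zero_eq_one, h0, zero_mul] at this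
    exact one_ne_zero this
  · rw [h'.out _ hM, mul_zero, mul_zero]

/-- the conjugate of an additive character -/
noncomputable def cj (N : Q) (mu : AddChar V ℂ) : AddChar V ℂ :=
  mu.compAddMonoidHom (DistribSMul.toAddMonoidHom V N⁻¹)

omit [Fintype V] [Fintype Q] in
theorem cj_apply (N : Q) (mu : AddChar V ℂ) (u : V) : cj N mu u = mu (N⁻¹ • u) := rfl

omit [Fintype Q] in
theorem sum_lam [DecidableEq (AddChar V ℂ)] (hl : lam ≠ 0) (hm : mu ≠ 0) (N : Q) :
    ∑ u : V, (1 - lam u) * conj (1 - mu (N⁻¹ • u)) =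
      (Nat.card V : ℂ) * (1 + if lam = cj N mu then 1 else 0) := by
  classical
  have hcj : cj N mu ≠ 0 := by
    intro h
    apply hm
    rw [AddChar.eq_zero_iff] at h ⊢
    intro x
    have := h (N • x)
    rwa [cj_apply, inv_smul_smul] at this
  have h1 : ∀ u : V, (1 - lam u) * conj (1 - mu (N⁻¹ • u)) =
      1 - lam u - conj (cj N mu u) + (lam - cj N mu) u := by
    intro u
    rw [AddChar.sub_apply, AddChar.map_neg_eq_conj, cj_apply, map_sub, map_one]
    ring
  rw [Finset.sum_congr rfl fun u _ => h1 u, Finset.sum_add_distrib, Finset.sum_sub_distrib,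
    Finset.sum_sub_distrib, ← map_sum (starRingEnd ℂ), AddChar.sum_eq_ite, AddChar.sum_eq_ite,
    AddChar.sum_eq_ite, if_neg hl, if_neg hcj, Finset.sum_const, Finset.card_univ, nsmul_eq_mul,
    Nat.card_eq_fintype_card]
  by_cases he : lam = cj N mu
  · rw [if_pos he, if_pos (sub_eq_zero.2 he)]
    simp
    ring
  · rw [if_neg he, if_neg (fun h => he (sub_eq_zero.1 h))]
    simp

omit [AddCommGroup V] [Group Q] [DistribMulAction Q V] [Fintype V] [Fintype Q] in
theorem sum_subgroup {G : Type*} [Group G] [Fintype G] (S : Subgroup G) [Fintype S] (F : G → ℂ)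
    (hF : ∀ y, y ∉ S → F y = 0) : ∑ y : S, F y = ∑ y : G, F y := by
  classical
  have h1 : ∑ y ∈ Finset.univ.filter (fun y => y ∈ S), F y = ∑ y : S, F y :=
    Finset.sum_subtype _ (by simp) F
  rw [← h1]
  apply Finset.sum_subset (Finset.subset_univ _)
  intro y _ hy
  apply hF
  simpa using hy

/-- the inner products -/
theorem inner_th [DecidableEq (AddChar V ℂ)] (h : LinDat lam C χ) (h' : LinDat mu C' χ')
    (hl : lam ≠ 0) (hm : mu ≠ 0) :
    classInner (th lam C χ) (th mu C' χ') = ((Nat.card C : ℂ) * Nat.card C')⁻¹ *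
      ∑ N : Q, ∑ M : Q, χ M * conj (χ' (N⁻¹ * M * N)) * (1 + if lam = cj N mu then 1 else 0) := by
  classical
  have hcl : IsClassFunction (Sd V Q) (th mu C' χ') := gen_isClassFunction h'.gen_th
  have e0 : classInner (th lam C χ) (th mu C' χ') =
      ((Nat.card V : ℂ) * Nat.card C)⁻¹ * ∑ y : Sd V Q, af lam χ y * conj (th mu C' χ' y) := by
    rw [th, Cfsg.Agent.S0150.classInner_indFun _ _ _ hcl, classInner_def, Sd.card_SC]
    push_cast
    congr 1
    exact sum_subgroup (Sd.SC C) (fun y => af lam χ y * conj (th mu C' χ' y)) (fun y hy => by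
      rw [af, h.out _ (fun h' => hy (Sd.mem_SC.2 h')), mul_zero, zero_mul])
  have e1 : ∑ y : Sd V Q, af lam χ y * conj (th mu C' χ' y) =
      ((Nat.card V : ℂ) * Nat.card C')⁻¹ * ∑ x : Sd V Q, ∑ y : Sd V Q,
        af lam χ y * conj (af mu χ' (x⁻¹ * y * x)) := by
    rw [Finset.sum_comm, Finset.mul_sum]
    refine Finset.sum_congr rfl fun y _ => ?_
    rw [h'.th_apply, map_mul, map_sum, map_inv₀, map_mul, Complex.conj_natCast, Complex.conj_natCast,
      ← Finset.mul_sum]
    ring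
  have e2 : ∑ x : Sd V Q, ∑ y : Sd V Q, af lam χ y * conj (af mu χ' (x⁻¹ * y * x)) =
      (Nat.card V : ℂ) ^ 2 * ∑ N : Q, ∑ M : Q, χ M * conj (χ' (N⁻¹ * M * N)) *
        (1 + if lam = cj N mu then 1 else 0) := by
    rw [Sd.sum_eq, Finset.mul_sum]
    refine Finset.sum_congr rfl fun N _ => ?_
    have e3 : ∀ z : V, ∑ y : Sd V Q, af lam χ y * conj (af mu χ' ((⟨z, N⟩ : Sd V Q)⁻¹ * y * ⟨z, N⟩)) =
        (Nat.card V : ℂ) * ∑ M : Q, χ M * conj (χ' (N⁻¹ * M * N)) *
        (1 + if lam = cj N mu then 1 else 0) := by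
      intro z
      rw [Sd.sum_eq, Finset.mul_sum]
      refine Finset.sum_congr rfl fun M _ => ?_
      have e4 : ∀ u : V, af lam χ ⟨u, M⟩ *
          conj (af mu χ' ((⟨z, N⟩ : Sd V Q)⁻¹ * ⟨u, M⟩ * ⟨z, N⟩)) =
          χ M * conj (χ' (N⁻¹ * M * N)) * ((1 - lam u) * conj (1 - mu (N⁻¹ • u))) := by
        intro u
        rw [h'.af_conj, af, map_mul]
        ring
      rw [Finset.sum_congr rfl fun u _ => e4 u, ← Finset.mul_sum, sum_lam hl hm]
      ring
    rw [Finset.sum_congr rfl fun z _ => e3 z, Finset.sum_const, Finset.card_univ, nsmul_eq_mul,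
      Nat.card_eq_fintype_card]
    ring
  have hV : (Nat.card V : ℂ) ≠ 0 := Nat.cast_ne_zero.2 Nat.card_pos.ne'
  rw [e0, e1, e2]
  field_simp

/-- the inner products with the trivial character -/
theorem inner_th_one (h : LinDat lam C χ) (hl : lam ≠ 0) :
    classInner (th lam C χ) 1 = (Nat.card C : ℂ)⁻¹ * ∑ M : Q, χ M := by
  classical
  rw [th, Cfsg.Agent.S0150.classInner_indFun _ _ _ (isIrr_isClassFunction isIrr_one), classInner_def,
    Sd.card_SC]
  have e1 : ∑ y : (Sd.SC C : Subgroup (Sd V Q)), af lam χ y * conj ((1 : Sd V Q → ℂ) y) =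
      ∑ y : Sd V Q, af lam χ y := by
    rw [← sum_subgroup (Sd.SC C) (fun y => af lam χ y) (fun y hy => by
      rw [af, h.out _ (fun h' => hy (Sd.mem_SC.2 h')), mul_zero])]
    exact Finset.sum_congr rfl fun y _ => by simp
  have e2 : ∑ y : Sd V Q, af lam χ y = (Nat.card V : ℂ) * ∑ M : Q, χ M := by
    rw [Sd.sum_eq, Finset.mul_sum]
    refine Finset.sum_congr rfl fun M _ => ?_
    simp only [af]
    rw [← Finset.sum_mul, Finset.sum_sub_distrib, AddChar.sum_eq_ite, if_neg hl, Finset.sum_const,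
      Finset.card_univ, nsmul_eq_mul, Nat.card_eq_fintype_card]
    ring
  have hV : (Nat.card V : ℂ) ≠ 0 := Nat.cast_ne_zero.2 Nat.card_pos.ne'
  rw [e1, e2]
  push_cast
  field_simp

end

end Cfsg.Agent.H431.Alt
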