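import Mathlib
import Cfsg.Agent.H431.AltSd
import Cfsg.Agent.H431.AltQ

/-!
# The Gram matrix of the exceptional characters of `3^3 : S_4`
-/

set_option autoImplicit false

open Cfsg

namespace Cfsg.Agent.H431.Alt

open Cfsg.Agent.Characters.Core Cfsg.Agent.OddOrderCharacters.VChar
open Cfsg.Agent.H431.ExcChar Cfsg.Agent.OddOrderCharacters.IndRes

open scoped ComplexConjugate

/-- `𝔽₃³` -/
abbrev V3 : Type := Fin 3 → ZMod 3

/-- the scalar product -/
def dt (l u : V3) : ZMod 3 := l 0 * u 0 + l 1 * u 1 + l 2 * u 2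

theorem dt_smul (N : SP) (l u : V3) : dt (N • l) (N • u) = dt l u := by
  have h1 : ∀ j, (N • l) j * (N • u) j = l (N.p⁻¹ j) * u (N.p⁻¹ j) := by
    intro j
    rw [SP.smul_apply, SP.smul_apply]
    have : (((N.e j : ℤ) : ZMod 3)) * ((N.e j : ℤ) : ZMod 3) = 1 := by
      rcases Int.units_eq_one_or (N.e j) with h | h <;> rw [h] <;> decide
    linear_combination (l (N.p⁻¹ j) * u (N.p⁻¹ j)) * this
  have h2 : ∑ j, l (N.p⁻¹ j) * u (N.p⁻¹ j) = ∑ j, l j * u j :=
    Equiv.sum_comp (N.p⁻¹) (fun j => l j * u j)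
  rw [dt, h1, h1, h1, dt]
  rw [Fin.sum_univ_three, Fin.sum_univ_three] at h2
  exact h2

/-- the scalar product as a homomorphism -/
def dtHom (l : V3) : V3 →+ ZMod 3 where
  toFun u := dt l u
  map_zero' := by simp [dt]
  map_add' u v := by simp only [dt, Pi.add_apply]; ring

/-- the additive character of `𝔽₃³` -/
noncomputable def lam (l : V3) : AddChar V3 ℂ := (ZMod.stdAddChar (N := 3)).compAddMonoidHom (dtHom l)

theorem lam_apply (l u : V3) : lam l u = ZMod.stdAddChar (dt l u) := rfl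

theorem lam_injective : Function.Injective lam := by
  intro l l' h
  have h1 : ∀ u, dt l u = dt l' u := by
    intro u
    apply ZMod.injective_stdAddChar
    rw [← lam_apply, ← lam_apply, h]
  funext j
  have h2 := h1 (Pi.single j 1)
  fin_cases j <;> simpa [dt] using h2

theorem lam_zero : lam 0 = 0 := by
  ext u
  rw [lam_apply, AddChar.zero_apply]
  simp [dt]

theorem lam_ne {l : V3} (h : l ≠ 0) : lam l ≠ 0 := by
  rw [← lam_zero]
  exact fun h' => h (lam_injective h')

theorem cj_lam (N : Q) (l : V3) : cj N (lam l) = lam (N • l) := by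
  ext u
  rw [cj_apply, lam_apply, lam_apply]
  congr 1
  have h1 : u = (N : SP) • (N⁻¹ • u : V3) := by
    show u = N • (N⁻¹ • u)
    rw [smul_inv_smul]
  conv_rhs => rw [h1]
  exact (dt_smul N l _).symm

/-- a cyclic subgroup given by the list of its elements -/
structure Cyc {n : ℕ} [NeZero n] (c : Fin n → Q) (l : V3) (v : Fin n → ℂ) : Prop where
  inj : Function.Injective c
  zero : c 0 = 1
  add : ∀ i j, c (i + j) = c i * c j
  fix : ∀ i, c i • l = l
  v0 : v 0 = 1
  vadd : ∀ i j, v (i + j) = v i * v j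
  ne : l ≠ 0

/-- the function on the group with given values on the cyclic subgroup -/
noncomputable def chi {n : ℕ} (c : Fin n → Q) (v : Fin n → ℂ) (M : Q) : ℂ :=
  ∑ k, if M = c k then v k else 0

theorem sum_chi {n : ℕ} (c : Fin n → Q) (v : Fin n → ℂ) (F : Q → ℂ) :
    ∑ M, chi c v M * F M = ∑ k, v k * F (c k) := by
  simp only [chi, Finset.sum_mul]
  rw [Finset.sum_comm]
  refine Finset.sum_congr rfl fun k _ => ?_
  rw [Finset.sum_eq_single (c k)]
  · rw [if_pos rfl]
  · intro M _ hM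
    rw [if_neg hM, zero_mul]
  · intro h; exact absurd (Finset.mem_univ _) h

namespace Cyc

variable {n : ℕ} [NeZero n] {c : Fin n → Q} {l : V3} {v : Fin n → ℂ}

/-- the cyclic subgroup -/
def sub (h : Cyc c l v) : Subgroup Q where
  carrier := Set.range c
  one_mem' := ⟨0, h.zero⟩
  mul_mem' := by
    rintro _ _ ⟨i, rfl⟩ ⟨j, rfl⟩
    exact ⟨i + j, h.add i j⟩
  inv_mem' := by
    rintro _ ⟨i, rfl⟩
    refine ⟨-i, ?_⟩
    apply eq_inv_of_mul_eq_one_left
    rw [← h.add, neg_add_cancel, h.zero]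

theorem mem_sub (h : Cyc c l v) {M : Q} : M ∈ h.sub ↔ ∃ i, c i = M := Iff.rfl

theorem card_sub (h : Cyc c l v) : Nat.card h.sub = n := by
  have : Nat.card h.sub = Nat.card (Fin n) :=
    (Nat.card_congr (Equiv.ofInjective c h.inj)).symm
  rw [this, Nat.card_eq_fintype_card, Fintype.card_fin]

theorem chi_apply (h : Cyc c l v) (k : Fin n) : chi c v (c k) = v k := by
  rw [chi, Finset.sum_eq_single k]
  · rw [if_pos rfl]
  · intro j _ hj
    rw [if_neg (fun e => hj (h.inj e.symm))]
  · intro h; exact absurd (Finset.mem_univ _) h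

theorem linDat (h : Cyc c l v) : LinDat (lam l) h.sub (chi c v) where
  stab := by
    rintro _ ⟨i, rfl⟩ u
    rw [lam_apply, lam_apply]
    congr 1
    have h1 := dt_smul (c i) l u
    have h2 : ((c i : SP) • l : V3) = l := h.fix i
    rw [h2] at h1
    exact h1
  out := by
    intro M hM
    rw [chi]
    apply Finset.sum_eq_zero
    intro k _
    rw [if_neg]
    rintro rfl
    exact hM ⟨k, rfl⟩
  mul := by
    rintro _ ⟨i, rfl⟩ _ ⟨j, rfl⟩
    rw [← h.add, h.chi_apply, h.chi_apply, h.chi_apply, h.vadd]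
  one := by rw [← h.zero, h.chi_apply, h.v0]

/-- the induced generalized character -/
noncomputable def ch (h : Cyc c l v) : Sd V3 Q → ℂ := th (lam l) h.sub (chi c v)

theorem gen_ch (h : Cyc c l v) : IsGeneralizedCharacter (Sd V3 Q) h.ch := h.linDat.gen_th

theorem inner_ch (h : Cyc c l v) {n' : ℕ} [NeZero n'] {c' : Fin n' → Q} {l' : V3} {v' : Fin n' → ℂ}
    (h' : Cyc c' l' v') :
    classInner h.ch h'.ch = ((n : ℂ) * n')⁻¹ * ∑ k, ∑ j, v k * conj (v' j) * (W c l c' l' k j : ℂ) := by
  classical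
  rw [ch, ch, inner_th h.linDat h'.linDat (lam_ne h.ne) (lam_ne h'.ne), h.card_sub, h'.card_sub]
  congr 1
  have e1 : ∀ N : Q, ∑ M : Q, chi c v M * conj (chi c' v' (N⁻¹ * M * N)) *
      (1 + if lam l = cj N (lam l') then 1 else 0) =
      ∑ k, v k * (∑ j, if N⁻¹ * c k * N = c' j then conj (v' j) * (if l = N • l' then 2 else 1) else 0) := by
    intro N
    have e2 : (lam l = cj N (lam l')) ↔ l = N • l' := by
      rw [cj_lam]
      exact lam_injective.eq_iff
    have e3 : (1 + if lam l = cj N (lam l') then (1 : ℂ) else 0) = if l = N • l' then 2 else 1 := by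
      by_cases h : l = N • l'
      · rw [if_pos (e2.2 h), if_pos h]; norm_num
      · rw [if_neg (fun h' => h (e2.1 h')), if_neg h]; norm_num
    rw [e3]
    have e4 : ∀ M, chi c v M * conj (chi c' v' (N⁻¹ * M * N)) * (if l = N • l' then 2 else 1) =
        chi c v M * (conj (chi c' v' (N⁻¹ * M * N)) * (if l = N • l' then 2 else 1)) :=
      fun M => mul_assoc _ _ _
    rw [Finset.sum_congr rfl fun M _ => e4 M, sum_chi]
    refine Finset.sum_congr rfl fun k _ => ?_
    congr 1
    rw [chi, map_sum, Finset.sum_mul]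
    refine Finset.sum_congr rfl fun j _ => ?_
    by_cases hj : N⁻¹ * c k * N = c' j
    · rw [if_pos hj, if_pos hj]
    · rw [if_neg hj, if_neg hj, map_zero, zero_mul]
  rw [Finset.sum_congr rfl fun N _ => e1 N, Finset.sum_comm]
  refine Finset.sum_congr rfl fun k _ => ?_
  rw [← Finset.mul_sum, Finset.sum_comm, Finset.mul_sum]
  refine Finset.sum_congr rfl fun j _ => ?_
  rw [W]
  push_cast
  rw [mul_assoc]
  congr 1
  rw [Finset.mul_sum]
  refine Finset.sum_congr rfl fun N _ => ?_
  split_ifs <;> ring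

theorem inner_ch_one (h : Cyc c l v) : classInner h.ch 1 = (n : ℂ)⁻¹ * ∑ k, v k := by
  rw [ch, inner_th_one h.linDat (lam_ne h.ne), h.card_sub]
  congr 1
  have := sum_chi c v (fun _ => 1)
  simpa using this

end Cyc

end Cfsg.Agent.H431.Alt
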