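import Mathlib
import Cfsg.Agent.H431.AltGram

/-!
# The sums over pairs of involutions in `3^3 : S_4`
-/

set_option autoImplicit false

open Cfsg

namespace Cfsg.Agent.H431.Alt

open scoped ComplexConjugate

/-- the `(-1)`-eigenspace -/
def EE (M : Q) : Finset V3 := Finset.univ.filter (fun u => M • u = -u)

/-- the involutions of the rotation group -/
def Tv : Finset Q := Finset.univ.filter (fun M => M * M = 1 ∧ M ≠ 1 ∧ M.1.p = 1)
def Tt : Finset Q := Finset.univ.filter (fun M => M * M = 1 ∧ M ≠ 1 ∧ M.1.p ≠ 1)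
def Ti : Finset Q := Finset.univ.filter (fun M => M * M = 1 ∧ M ≠ 1)

theorem Tv_sub : Tv ⊆ Ti := by
  intro M hM
  rw [Tv, Finset.mem_filter] at hM
  rw [Ti, Finset.mem_filter]
  exact ⟨hM.1, hM.2.1, hM.2.2.1⟩

theorem Tt_sub : Tt ⊆ Ti := by
  intro M hM
  rw [Tt, Finset.mem_filter] at hM
  rw [Ti, Finset.mem_filter]
  exact ⟨hM.1, hM.2.1, hM.2.2.1⟩

set_option maxRecDepth 100000 in
theorem EE_card : ∀ M ∈ Ti, (EE M).card = 9 := by decide +kernel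

set_option maxRecDepth 100000 in
theorem EE_count : ∀ M ∈ Ti, ∀ l : V3, ∀ r : ZMod 3, ((EE M).filter (fun u => dt l u = r)).card =
    if M • l = l then (if r = 0 then 9 else 0) else 3 := by
  decide +kernel

theorem sum_zeta {A : Type*} (S : Finset A) (f : A → ZMod 3) :
    ∑ u ∈ S, (ZMod.stdAddChar (f u) : ℂ) =
      ∑ r : ZMod 3, ((S.filter (fun u => f u = r)).card : ℂ) * ZMod.stdAddChar r := by
  rw [← Finset.sum_fiberwise S f]
  refine Finset.sum_congr rfl fun r _ => ?_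
  rw [Finset.sum_congr rfl (fun u hu => by rw [(Finset.mem_filter.1 hu).2]), Finset.sum_const,
    nsmul_eq_mul]

theorem sum_std : ∑ r : ZMod 3, (ZMod.stdAddChar r : ℂ) = 0 := by
  have h : (ZMod.stdAddChar (N := 3)) ≠ 0 := by
    intro h
    have h1 : (ZMod.stdAddChar (1 : ZMod 3) : ℂ) = ZMod.stdAddChar (0 : ZMod 3) := by
      rw [h]; simp
    exact absurd (ZMod.injective_stdAddChar h1) (by decide)
  classical
  rw [AddChar.sum_eq_ite, if_neg h]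

/-- the sum of an additive character over the eigenspace -/
theorem sum_EE {M : Q} (hM : M ∈ Ti) (l : V3) :
    ∑ u ∈ EE M, lam l u = if M • l = l then 9 else 0 := by
  simp only [lam_apply]
  rw [sum_zeta, Finset.sum_congr rfl fun r _ => by rw [EE_count M hM l r]]
  by_cases h : M • l = l
  · simp only [if_pos h]
    rw [Finset.sum_eq_single 0]
    · simp
    · intro r _ hr
      rw [if_neg hr]; simp
    · intro h; exact absurd (Finset.mem_univ _) h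
  · simp only [if_neg h]
    rw [← Finset.mul_sum, sum_std, mul_zero]

theorem lam_smul (M : Q) (l u : V3) : lam l (M • u) = lam (M⁻¹ • l) u := by
  have := cj_lam M⁻¹ l
  rw [← this, cj_apply, inv_inv]

/-- the coefficients -/
def NN {n : ℕ} (T T' : Finset Q) (c : Fin n → Q) (l : V3) (k : Fin n) : ℕ :=
  ∑ M₁ ∈ T, ∑ M₂ ∈ T', if M₁ * M₂ = c k then
    (if M₁ • l = l ∧ M₂ • (M₁⁻¹ • l) = M₁⁻¹ • l then 0 else 1) else 0

/-- **the sum over pairs of involutions** -/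
theorem nsum {n : ℕ} {T T' : Finset Q} (hT : T ⊆ Ti) (hT' : T' ⊆ Ti) (c : Fin n → Q) (l : V3)
    (v : Fin n → ℂ) :
    ∑ M₁ ∈ T, ∑ u₁ ∈ EE M₁, ∑ M₂ ∈ T', ∑ u₂ ∈ EE M₂,
      af (lam l) (chi c v) ((⟨u₁, M₁⟩ : Sd V3 Q) * ⟨u₂, M₂⟩) =
      81 * ∑ k, v k * (NN T T' c l k : ℂ) := by
  have e1 : ∀ M₁ ∈ T, ∑ u₁ ∈ EE M₁, ∑ M₂ ∈ T', ∑ u₂ ∈ EE M₂,
      af (lam l) (chi c v) ((⟨u₁, M₁⟩ : Sd V3 Q) * ⟨u₂, M₂⟩) =
      ∑ M₂ ∈ T', chi c v (M₁ * M₂) * (81 *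
        (if M₁ • l = l ∧ M₂ • (M₁⁻¹ • l) = M₁⁻¹ • l then 0 else 1)) := by
    intro M₁ h1
    rw [Finset.sum_comm]
    refine Finset.sum_congr rfl fun M₂ h2 => ?_
    have e2 : ∀ u₁ ∈ EE M₁, ∀ u₂ ∈ EE M₂, af (lam l) (chi c v) ((⟨u₁, M₁⟩ : Sd V3 Q) * ⟨u₂, M₂⟩) =
        chi c v (M₁ * M₂) * (1 - lam l u₁ * lam (M₁⁻¹ • l) u₂) := by
      intro u₁ _ u₂ _
      rw [af, Sd.mul_u, Sd.mul_M, AddChar.map_add_eq_mul, lam_smul]
      ring
    rw [Finset.sum_congr rfl fun u₁ h => Finset.sum_congr rfl fun u₂ h' => e2 u₁ h u₂ h']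
    simp only [← Finset.mul_sum, Finset.sum_sub_distrib, Finset.sum_const, ← Finset.sum_mul]
    rw [sum_EE (hT h1), sum_EE (hT' h2), EE_card M₁ (hT h1), EE_card M₂ (hT' h2)]
    congr 1
    by_cases ha : M₁ • l = l
    · by_cases hb : M₂ • M₁⁻¹ • l = M₁⁻¹ • l
      · rw [if_pos ha, if_pos hb, if_pos ⟨ha, hb⟩]; norm_num
      · have hn : ¬ (M₁ • l = l ∧ M₂ • (M₁⁻¹ • l) = M₁⁻¹ • l) := fun h => hb h.2
        rw [if_neg hn, if_neg hb]; norm_num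
    · have hn : ¬ (M₁ • l = l ∧ M₂ • (M₁⁻¹ • l) = M₁⁻¹ • l) := fun h => ha h.1
      rw [if_neg hn, if_neg ha]; norm_num
  rw [Finset.sum_congr rfl e1]
  have e3 : ∀ M₁ M₂ : Q, chi c v (M₁ * M₂) * (81 *
        (if M₁ • l = l ∧ M₂ • (M₁⁻¹ • l) = M₁⁻¹ • l then 0 else 1)) =
      81 * ∑ k, v k * (if M₁ * M₂ = c k then
        (if M₁ • l = l ∧ M₂ • (M₁⁻¹ • l) = M₁⁻¹ • l then 0 else 1) else 0) := by
    intro M₁ M₂
    rw [chi, Finset.sum_mul, Finset.mul_sum]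
    refine Finset.sum_congr rfl fun k _ => ?_
    by_cases h : M₁ * M₂ = c k
    · rw [if_pos h, if_pos h]; ring
    · rw [if_neg h, if_neg h]; ring
  simp_rw [e3]
  simp_rw [← Finset.mul_sum]
  congr 1
  have e4 : ∀ M₁ ∈ T, ∑ M₂ ∈ T', ∑ k, v k * (if M₁ * M₂ = c k then
        (if M₁ • l = l ∧ M₂ • (M₁⁻¹ • l) = M₁⁻¹ • l then (0 : ℂ) else 1) else 0) =
      ∑ k, ∑ M₂ ∈ T', v k * (if M₁ * M₂ = c k then
        (if M₁ • l = l ∧ M₂ • (M₁⁻¹ • l) = M₁⁻¹ • l then 0 else 1) else 0) :=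
    fun M₁ _ => Finset.sum_comm
  rw [Finset.sum_congr rfl e4, Finset.sum_comm]
  refine Finset.sum_congr rfl fun k _ => ?_
  rw [NN]
  push_cast
  simp only [Finset.mul_sum]

end Cfsg.Agent.H431.Alt
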