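import Mathlib
import Cfsg.Agent.H431.AltNsum

/-!
# Classes of involutions and the elements with controlled fusion in `3^3 : S_4`
-/

set_option autoImplicit false

open Cfsg

namespace Cfsg.Agent.H431.Alt

open Cfsg.Agent.Characters.Core Cfsg.Agent.OddOrderCharacters.VChar
open Cfsg.Agent.H431.ExcChar Cfsg.Agent.OddOrderCharacters.IndRes

open scoped ComplexConjugate

/-- the model group -/
abbrev Md : Type := Sd V3 Q

/-- elements having a nontrivial power in `V` -/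
def DD (x : Md) : Prop := ∃ n : ℕ, (x ^ n).M = 1 ∧ x ^ n ≠ 1

theorem DD_conj {x : Md} (y : Md) (h : DD (y⁻¹ * x * y)) : DD x := by
  obtain ⟨n, h1, h2⟩ := h
  have h3 : (y⁻¹ * x * y) ^ n = y⁻¹ * x ^ n * y := by
    have := conj_pow (i := n) (a := y⁻¹) (b := x)
    rw [inv_inv] at this
    exact this
  refine ⟨n, ?_, ?_⟩
  · rw [h3] at h1
    simp only [Sd.mul_M, Sd.inv_M] at h1
    have h4 : (x ^ n).M = y.M * (y.M⁻¹ * (x ^ n).M * y.M) * y.M⁻¹ := by group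
    rw [h4, h1]; group
  · intro h4
    apply h2
    rw [h3, h4]; group

theorem three_eq_zero (u : V3) : u + u + u = 0 := by
  funext j
  simp only [Pi.add_apply, Pi.zero_apply]
  generalize u j = a
  revert a
  decide

theorem two_ne (u : V3) (h : u + u = 0) : u = 0 := by
  have := three_eq_zero u
  rwa [h, zero_add] at this

/-- the involutions above a set of involutions of the rotation group -/
def cl (T : Finset Q) : Finset Md := Finset.univ.filter (fun x => x.M ∈ T ∧ x * x = 1)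

theorem mem_cl {T : Finset Q} {x : Md} : x ∈ cl T ↔ x.M ∈ T ∧ x * x = 1 := by
  simp [cl]

theorem sq_eq_one {x : Md} : x * x = 1 ↔ x.M • x.u = -x.u ∧ x.M * x.M = 1 := by
  rw [Sd.ext_iff]
  simp only [Sd.mul_u, Sd.mul_M, Sd.one_u, Sd.one_M]
  rw [add_comm, add_eq_zero_iff_eq_neg]

theorem not_DD {x : Md} (h : x * x = 1) : ¬ DD x := by
  rintro ⟨n, h1, h2⟩
  rcases Nat.even_or_odd' n with ⟨m, rfl | rfl⟩
  · apply h2
    rw [pow_mul, pow_two, h, one_pow]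
  · rw [pow_succ, pow_mul, pow_two, h, one_pow, one_mul] at h1 h2
    obtain ⟨h3, -⟩ := sq_eq_one.1 h
    rw [h1, one_smul] at h3
    have h4 : x.u = 0 := two_ne _ (by nth_rewrite 1 [h3]; exact neg_add_cancel _)
    exact h2 (Sd.ext h4 h1)

theorem sum_cl {T : Finset Q} (hT : T ⊆ Ti) (F : Md → ℂ) :
    ∑ x ∈ cl T, F x = ∑ M ∈ T, ∑ u ∈ EE M, F ⟨u, M⟩ := by
  rw [Finset.sum_sigma']
  refine Finset.sum_bij' (fun x _ => ⟨x.M, x.u⟩) (fun p _ => ⟨p.2, p.1⟩) ?_ ?_ ?_ ?_ ?_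
  · intro x hx
    rw [mem_cl, sq_eq_one] at hx
    simp only [Finset.mem_sigma, EE, Finset.mem_filter, Finset.mem_univ, true_and]
    exact ⟨hx.1, hx.2.1⟩
  · intro p hp
    simp only [Finset.mem_sigma, EE, Finset.mem_filter, Finset.mem_univ, true_and] at hp
    rw [mem_cl, sq_eq_one]
    have := hT hp.1
    rw [Ti, Finset.mem_filter] at this
    exact ⟨hp.1, hp.2, this.2.1⟩
  · intro x _; rfl
  · intro p _; rfl
  · intro x _; rfl

set_option maxRecDepth 100000 in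
theorem Tv_conj : ∀ M ∈ Tv, ∀ N : Q, N * M * N⁻¹ ∈ Tv := by decide +kernel
set_option maxRecDepth 100000 in
theorem Tt_conj : ∀ M ∈ Tt, ∀ N : Q, N * M * N⁻¹ ∈ Tt := by decide +kernel
set_option maxRecDepth 100000 in
theorem Tv_trans : ∀ M ∈ Tv, ∃ N : Q, N * M * N⁻¹ = v0 := by decide +kernel
set_option maxRecDepth 100000 in
theorem Tt_trans : ∀ M ∈ Tt, ∃ N : Q, N * M * N⁻¹ = t0 := by decide +kernel
set_option maxRecDepth 100000 in
theorem inv_cases : ∀ M : Q, M * M = 1 → M ≠ 1 → M ∈ Tv ∨ M ∈ Tt := by decide +kernel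
set_option maxRecDepth 100000 in
theorem v0_mem : v0 ∈ Tv := by decide +kernel
set_option maxRecDepth 100000 in
theorem t0_mem : t0 ∈ Tt := by decide +kernel

/-- the two representatives -/
def xv : Md := ⟨0, v0⟩
def xt : Md := ⟨0, t0⟩

theorem conj_cl {T : Finset Q} (hT : ∀ M ∈ T, ∀ N : Q, N * M * N⁻¹ ∈ T) {x : Md} (hx : x ∈ cl T)
    (y : Md) : y * x * y⁻¹ ∈ cl T := by
  rw [mem_cl] at hx ⊢
  refine ⟨hT _ hx.1 _, ?_⟩
  calc y * x * y⁻¹ * (y * x * y⁻¹) = y * (x * x) * y⁻¹ := by group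
    _ = 1 := by rw [hx.2]; group

theorem conj_zero {x : Md} (hx : x * x = 1) : (⟨x.u, 1⟩ : Md) * x * (⟨x.u, 1⟩ : Md)⁻¹ = ⟨0, x.M⟩ := by
  obtain ⟨h1, -⟩ := sq_eq_one.1 hx
  ext1
  · simp only [Sd.mul_u, Sd.mul_M, Sd.inv_u, one_smul, inv_one, one_mul, smul_neg, h1, neg_neg]
    exact three_eq_zero _
  · simp

theorem trans_cl {T : Finset Q} {M₀ : Q} (hT : ∀ M ∈ T, ∃ N : Q, N * M * N⁻¹ = M₀) {x : Md}
    (hx : x ∈ cl T) : ∃ y : Md, y * x * y⁻¹ = ⟨0, M₀⟩ := by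
  rw [mem_cl] at hx
  obtain ⟨N, hN⟩ := hT _ hx.1
  refine ⟨⟨0, N⟩ * ⟨x.u, 1⟩, ?_⟩
  have h1 := conj_zero hx.2
  calc (⟨0, N⟩ * ⟨x.u, 1⟩ : Md) * x * (⟨0, N⟩ * ⟨x.u, 1⟩ : Md)⁻¹ =
      ⟨0, N⟩ * ((⟨x.u, 1⟩ : Md) * x * (⟨x.u, 1⟩ : Md)⁻¹) * (⟨0, N⟩ : Md)⁻¹ := by group
    _ = ⟨0, M₀⟩ := by
      rw [h1]
      ext1
      · simp
      · exact hN

theorem exists_cl {x : Md} (hx : x * x = 1) (hx1 : x ≠ 1) : x ∈ cl Tv ∨ x ∈ cl Tt := by
  obtain ⟨h1, h2⟩ := sq_eq_one.1 hx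
  by_cases hM : x.M = 1
  · exfalso
    rw [hM, one_smul] at h1
    have h4 : x.u = 0 := two_ne _ (by nth_rewrite 1 [h1]; exact neg_add_cancel _)
    exact hx1 (Sd.ext h4 hM)
  · rcases inv_cases _ h2 hM with h | h
    · exact Or.inl (mem_cl.2 ⟨h, hx⟩)
    · exact Or.inr (mem_cl.2 ⟨h, hx⟩)

theorem xv_mem : xv ∈ cl Tv := mem_cl.2 ⟨v0_mem, sq_eq_one.2 ⟨by simp [xv], by
  have := Tv_sub v0_mem
  rw [Ti, Finset.mem_filter] at this
  exact this.2.1⟩⟩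

theorem xt_mem : xt ∈ cl Tt := mem_cl.2 ⟨t0_mem, sq_eq_one.2 ⟨by simp [xt], by
  have := Tt_sub t0_mem
  rw [Ti, Finset.mem_filter] at this
  exact this.2.1⟩⟩

theorem card_Md : Nat.card Md = 648 := by
  rw [Sd.card_eq, Nat.card_eq_fintype_card, Nat.card_eq_fintype_card, card_Q]
  simp

/-! ### sums of the induced characters over pairs of involutions -/

theorem sum3 {A B X : Type*} [Fintype X] (s : Finset A) (t : Finset B) (F : X → A → B → ℂ) :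
    ∑ p ∈ s, ∑ q ∈ t, ∑ x, F x p q = ∑ x, ∑ p ∈ s, ∑ q ∈ t, F x p q := by
  rw [Finset.sum_congr rfl fun p _ => Finset.sum_comm, Finset.sum_comm]

variable {n : ℕ} [NeZero n] {c : Fin n → Q} {l : V3} {v : Fin n → ℂ}

attribute [local irreducible] cl EE NN af

theorem Cyc.sum_ch (h : Cyc c l v) {T T' : Finset Q} (hT : T ⊆ Ti) (hT' : T' ⊆ Ti)
    (hc : ∀ M ∈ T, ∀ N : Q, N * M * N⁻¹ ∈ T) (hc' : ∀ M ∈ T', ∀ N : Q, N * M * N⁻¹ ∈ T') :
    ∑ p ∈ cl T, ∑ q ∈ cl T', h.ch (p * q) = (24 * 81 / n) * ∑ k, v k * (NN T T' c l k : ℂ) := by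
  have e1 : ∀ x : Md, ∑ p ∈ cl T, ∑ q ∈ cl T', af (lam l) (chi c v) (x⁻¹ * (p * q) * x) =
      ∑ p ∈ cl T, ∑ q ∈ cl T', af (lam l) (chi c v) (p * q) := by
    intro x
    refine Finset.sum_bij' (fun p _ => x⁻¹ * p * x) (fun p _ => x * p * x⁻¹) ?_ ?_ ?_ ?_ ?_
    · intro p hp
      have := conj_cl hc hp x⁻¹
      rwa [inv_inv] at this
    · intro p hp
      exact conj_cl hc hp x
    · intro p _; group
    · intro p _; group
    · intro p _
      refine Finset.sum_bij' (fun p _ => x⁻¹ * p * x) (fun p _ => x * p * x⁻¹) ?_ ?_ ?_ ?_ ?_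
      · intro p hp
        have := conj_cl hc' hp x⁻¹
        rwa [inv_inv] at this
      · intro p hp
        exact conj_cl hc' hp x
      · intro p _; group
      · intro p _; group
      · intro q _
        congr 1
        group
  have e2 : ∑ p ∈ cl T, ∑ q ∈ cl T', h.ch (p * q) = ((27 : ℂ) * n)⁻¹ * ∑ x : Md,
      ∑ p ∈ cl T, ∑ q ∈ cl T', af (lam l) (chi c v) (x⁻¹ * (p * q) * x) := by
    have e3 : ∀ y, h.ch y = ((27 : ℂ) * n)⁻¹ * ∑ x : Md, af (lam l) (chi c v) (x⁻¹ * y * x) := by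
      intro y
      rw [Cyc.ch, h.linDat.th_apply, h.card_sub, Nat.card_eq_fintype_card]
      congr 3
    rw [Finset.sum_congr rfl fun p _ => Finset.sum_congr rfl fun q _ => e3 (p * q)]
    simp only [← Finset.mul_sum]
    rw [sum3 (cl T) (cl T') (fun x p q => af (lam l) (chi c v) (x⁻¹ * (p * q) * x))]
  rw [e2, Finset.sum_congr rfl fun x _ => e1 x, Finset.sum_const, Finset.card_univ, nsmul_eq_mul,
    ← Nat.card_eq_fintype_card, card_Md]
  have e4 : ∑ p ∈ cl T, ∑ q ∈ cl T', af (lam l) (chi c v) (p * q) =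
      81 * ∑ k, v k * (NN T T' c l k : ℂ) := by
    rw [sum_cl hT]
    rw [← nsum hT hT' c l v]
    refine Finset.sum_congr rfl fun M _ => Finset.sum_congr rfl fun u _ => ?_
    rw [sum_cl hT']
  rw [e4]
  have hn : (n : ℂ) ≠ 0 := Nat.cast_ne_zero.2 (NeZero.ne n)
  field_simp
  ring

end Cfsg.Agent.H431.Alt
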