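import Mathlib
import Cfsg.Agent.H431.AltCl

/-!
# The group of the statement is the model `3^3 : S_4`
-/

set_option autoImplicit false

namespace Cfsg.Agent.H431.Alt

open Equiv Equiv.Perm

instance : MulAction Md (Fin 3 × ZMod 3) where
  smul x y := (x.M.1.p y.1, ((x.M.1.e (x.M.1.p y.1) : ℤ) : ZMod 3) * y.2 + x.u (x.M.1.p y.1))
  one_smul y := by
    show ((1 : SP).p y.1, (((1 : SP).e ((1 : SP).p y.1) : ℤ) : ZMod 3) * y.2 + (0 : V3) _) = y
    simp [SP.one_e, SP.one_p]
  mul_smul x x' y := by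
    show ((x.M.1 * x'.M.1).p y.1, (((x.M.1 * x'.M.1).e ((x.M.1 * x'.M.1).p y.1) : ℤ) : ZMod 3) * y.2 +
      (x.u + x.M.1 • x'.u) ((x.M.1 * x'.M.1).p y.1)) = (x.M.1.p (x'.M.1.p y.1),
      ((x.M.1.e (x.M.1.p (x'.M.1.p y.1)) : ℤ) : ZMod 3) *
        (((x'.M.1.e (x'.M.1.p y.1) : ℤ) : ZMod 3) * y.2 + x'.u (x'.M.1.p y.1)) +
        x.u (x.M.1.p (x'.M.1.p y.1)))
    have h : ∀ i, (x.M.1.p)⁻¹ (x.M.1.p i) = i := fun i => by
      rw [← Perm.mul_apply, inv_mul_cancel]; rfl
    simp only [SP.mul_p, SP.mul_e, Perm.mul_apply, Pi.add_apply, SP.smul_apply, h]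
    congr 1
    push_cast
    ring

theorem act_def (x : Md) (y : Fin 3 × ZMod 3) : x • y =
    (x.M.1.p y.1, ((x.M.1.e (x.M.1.p y.1) : ℤ) : ZMod 3) * y.2 + x.u (x.M.1.p y.1)) := rfl

/-- the nine points -/
def e9 : Fin 3 × ZMod 3 ≃ Fin 9 := finProdFinEquiv (m := 3) (n := 3)

/-- the model group as a permutation group -/
def FF : Md →* Perm (Fin 9) :=
  (e9.permCongrHom.toMonoidHom).comp (MulAction.toPermHom Md (Fin 3 × ZMod 3))

theorem unit_eq_one : ∀ e : ℤˣ, ((e : ℤ) : ZMod 3) = 1 → e = 1 := by decide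

theorem FF_injective : Function.Injective FF := by
  rw [injective_iff_map_eq_one]
  intro x hx
  have h1 : ∀ y : Fin 3 × ZMod 3, x • y = y := by
    intro y
    have h2 : MulAction.toPermHom Md (Fin 3 × ZMod 3) x = 1 :=
      e9.permCongrHom.injective (by rw [map_one]; exact hx)
    exact congrArg (fun e : Perm (Fin 3 × ZMod 3) => e y) h2
  have hp : ∀ i, x.M.1.p i = i := fun i => congrArg Prod.fst (h1 (i, 0))
  have h2 : ∀ i (a : ZMod 3), ((x.M.1.e i : ℤ) : ZMod 3) * a + x.u i = a := by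
    intro i a
    have := congrArg Prod.snd (h1 (i, a))
    rw [act_def] at this
    simpa only [hp] using this
  have hu : ∀ i, x.u i = 0 := by
    intro i
    have := h2 i 0
    rwa [mul_zero, zero_add] at this
  ext1
  · funext i
    exact hu i
  · apply Subtype.ext
    ext1
    · funext i
      apply unit_eq_one
      have := h2 i 1
      rwa [hu, mul_one, add_zero] at this
    · ext i
      exact congrArg Fin.val (hp i)

/-- the group of the statement -/
def HH : Subgroup (Perm (Fin 9)) := Subgroup.closure ({Equiv.swap (0 : Fin 9) 1 * Equiv.swap 1 2,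
        Equiv.swap (0 : Fin 9) 3 * Equiv.swap 3 6 * (Equiv.swap (1 : Fin 9) 4 * Equiv.swap 4 7) * (Equiv.swap (2 : Fin 9) 5 * Equiv.swap 5 8),
        Equiv.swap (0 : Fin 9) 1 * Equiv.swap 3 4, Equiv.swap (0 : Fin 9) 3 * Equiv.swap 1 4 * Equiv.swap 2 5 * Equiv.swap 6 7} : Set (Equiv.Perm (Fin 9)))

/-- a flip -/
def v2 : Q := ⟨⟨![-1, -1, 1], 1⟩, by decide⟩

def y1 : Md := ⟨![1, 0, 0], 1⟩
def y2 : Md := ⟨0, s0⟩
def y3 : Md := ⟨![1, 1, 0], v2⟩
def y4 : Md := ⟨![0, 0, 1], t0⟩

theorem FF_y1 : FF y1 = Equiv.swap (0 : Fin 9) 1 * Equiv.swap 1 2 := by decide +kernel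
theorem FF_y2 : FF y2 = Equiv.swap (0 : Fin 9) 3 * Equiv.swap 3 6 * (Equiv.swap (1 : Fin 9) 4 * Equiv.swap 4 7) * (Equiv.swap (2 : Fin 9) 5 * Equiv.swap 5 8) := by
  decide +kernel
theorem FF_y3 : FF y3 = Equiv.swap (0 : Fin 9) 1 * Equiv.swap 3 4 := by decide +kernel
theorem FF_y4 : FF y4 = Equiv.swap (0 : Fin 9) 3 * Equiv.swap 1 4 * Equiv.swap 2 5 * Equiv.swap 6 7 := by
  decide +kernel

set_option maxRecDepth 100000 in
theorem Q_words : ∀ M : Q, ∃ i : Fin 3, ∃ j k l : Fin 2,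
    M = s0 ^ (i : ℕ) * v2 ^ (j : ℕ) * (s0 * v2 * s0⁻¹) ^ (k : ℕ) * t0 ^ (l : ℕ) := by
  decide +kernel

theorem V_words : ∀ u : V3, u = (u 0).val • (![1, 0, 0] : V3) + (u 1).val • (s0 • (![1, 0, 0] : V3)) +
    (u 2).val • (s0 • s0 • (![1, 0, 0] : V3)) := by
  decide +kernel

theorem HH_eq : HH = FF.range := by
  apply le_antisymm
  · rw [HH, Subgroup.closure_le]
    intro x hx
    simp only [Set.mem_insert_iff, Set.mem_singleton_iff] at hx
    rcases hx with rfl | rfl | rfl | rfl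
    · exact ⟨y1, FF_y1⟩
    · exact ⟨y2, FF_y2⟩
    · exact ⟨y3, FF_y3⟩
    · exact ⟨y4, FF_y4⟩
  · have h1 : y1 ∈ HH.comap FF := by
      rw [Subgroup.mem_comap, FF_y1]
      exact Subgroup.subset_closure (by simp)
    have h2 : y2 ∈ HH.comap FF := by
      rw [Subgroup.mem_comap, FF_y2]
      exact Subgroup.subset_closure (by simp)
    have h3 : y3 ∈ HH.comap FF := by
      rw [Subgroup.mem_comap, FF_y3]
      exact Subgroup.subset_closure (by simp)
    have h4 : y4 ∈ HH.comap FF := by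
      rw [Subgroup.mem_comap, FF_y4]
      exact Subgroup.subset_closure (by simp)
    have key : HH.comap FF = ⊤ := by
      generalize HH.comap FF = C at h1 h2 h3 h4
      -- the elements of `V`
      have hmul : ∀ u v : V3, (⟨u, 1⟩ : Md) * ⟨v, 1⟩ = ⟨u + v, 1⟩ := by
        intro u v; ext1
        · simp
        · simp
      have hadd : ∀ u v : V3, (⟨u, 1⟩ : Md) ∈ C → (⟨v, 1⟩ : Md) ∈ C → (⟨u + v, 1⟩ : Md) ∈ C := by
        intro u v hu hv
        rw [← hmul]
        exact C.mul_mem hu hv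
      have hzero : (⟨0, 1⟩ : Md) ∈ C := C.one_mem
      have hnsmul : ∀ (n : ℕ) (u : V3), (⟨u, 1⟩ : Md) ∈ C → (⟨n • u, 1⟩ : Md) ∈ C := by
        intro n u hu
        induction n with
        | zero => rw [zero_smul]; exact hzero
        | succ n ih => rw [succ_nsmul]; exact hadd _ _ ih hu
      have hrot : ∀ u : V3, (⟨u, 1⟩ : Md) ∈ C → (⟨s0 • u, 1⟩ : Md) ∈ C := by
        intro u hu
        have : (⟨s0 • u, 1⟩ : Md) = y2 * ⟨u, 1⟩ * y2⁻¹ := by
          ext1
          · simp [y2]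
          · simp [y2]
        rw [this]
        exact C.mul_mem (C.mul_mem h2 hu) (C.inv_mem h2)
      have hV : ∀ u : V3, (⟨u, 1⟩ : Md) ∈ C := by
        intro u
        rw [V_words u]
        exact hadd _ _ (hadd _ _ (hnsmul _ _ h1) (hnsmul _ _ (hrot _ h1)))
          (hnsmul _ _ (hrot _ (hrot _ h1)))
      -- the elements of `Q`
      have hdec : ∀ (u : V3) (M : Q), (⟨u, M⟩ : Md) = ⟨u, 1⟩ * ⟨0, M⟩ := by
        intro u M; ext1
        · simp
        · simp
      have hQ' : ∀ (u : V3) (M : Q), (⟨u, M⟩ : Md) ∈ C → (⟨0, M⟩ : Md) ∈ C := by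
        intro u M h
        rw [hdec] at h
        exact (Subgroup.mul_mem_cancel_left C (hV u)).1 h
      let R : Subgroup Q :=
        { carrier := {M | (⟨0, M⟩ : Md) ∈ C}
          one_mem' := C.one_mem
          mul_mem' := by
            intro M N hM hN
            have : (⟨0, M * N⟩ : Md) = ⟨0, M⟩ * ⟨0, N⟩ := by
              ext1
              · simp
              · simp
            show (⟨0, M * N⟩ : Md) ∈ C
            rw [this]
            exact C.mul_mem hM hN
          inv_mem' := by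
            intro M hM
            have : (⟨0, M⁻¹⟩ : Md) = (⟨0, M⟩ : Md)⁻¹ := by
              ext1
              · simp
              · simp
            show (⟨0, M⁻¹⟩ : Md) ∈ C
            rw [this]
            exact C.inv_mem hM }
      have r1 : s0 ∈ R := h2
      have r2 : v2 ∈ R := hQ' _ _ h3
      have r3 : t0 ∈ R := hQ' _ _ h4
      have hQ : ∀ M : Q, (⟨0, M⟩ : Md) ∈ C := by
        intro M
        have : M ∈ R := by
          obtain ⟨i, j, k, l, h⟩ := Q_words M
          rw [h]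
          exact R.mul_mem (R.mul_mem (R.mul_mem (R.pow_mem r1 _) (R.pow_mem r2 _))
            (R.pow_mem (R.mul_mem (R.mul_mem r1 r2) (R.inv_mem r1)) _)) (R.pow_mem r3 _)
        exact this
      rw [eq_top_iff]
      intro x _
      have : x = ⟨x.u, 1⟩ * ⟨0, x.M⟩ := hdec x.u x.M
      rw [this]
      exact C.mul_mem (hV _) (hQ _)
    rintro _ ⟨x, rfl⟩
    have : x ∈ HH.comap FF := by rw [key]; trivial
    exact this

/-- the isomorphism with the model group -/
noncomputable def equivHH : HH ≃* Md :=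
  (MulEquiv.subgroupCongr HH_eq).trans (MonoidHom.ofInjective FF_injective).symm

end Cfsg.Agent.H431.Alt
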