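import Mathlib
import Cfsg.Agent.H431.AltPerm
import Cfsg.Agent.H431.AltChar
import Cfsg.Agent.H431.BlockFinish
import Cfsg.Agent.Lib.Cores
import Cfsg.Prelude.Def_TwoFusion

/-!
# A subgroup `3^3 : S_4` with strongly closed `3`-core is the whole group
-/

set_option autoImplicit false

open Cfsg

namespace Cfsg.Agent.H431.Alt

open Equiv Equiv.Perm

open scoped Pointwise

/-! ### facts on the model -/

theorem pow27 (u : V3) : u + u + u = 0 := three_eq_zero u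

theorem cube_V {x : Md} (hx : x.M = 1) : x ^ 3 = 1 := by
  have h : x * x * x = 1 := by
    ext1
    · simp only [Sd.mul_u, Sd.mul_M, hx, one_smul, mul_one, Sd.one_u]
      exact three_eq_zero _
    · simp [hx]
  calc x ^ 3 = x * x * x := by rw [pow_succ, pow_two]
    _ = 1 := h

theorem pow_M (x : Md) (n : ℕ) : (x ^ n).M = x.M ^ n := map_pow (Sd.proj : Md →* Q) x n

set_option maxRecDepth 100000 in
theorem three_core : ∀ M : Q, M ≠ 1 → ∃ N : Q, (N * M * N⁻¹ * M⁻¹) * (N * M * N⁻¹ * M⁻¹) = 1 ∧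
    N * M * N⁻¹ * M⁻¹ ≠ 1 ∨ M * M = 1 ∨ (M * M * (M * M) = 1 ∧ M * M ≠ 1) := by decide +kernel

set_option maxRecDepth 100000 in
theorem cen_v0 : ∀ M : Q, M * v0 = v0 * M → M * M * (M * M) = 1 := by decide +kernel

set_option maxRecDepth 100000 in
theorem cen_t0 : ∀ M : Q, M * t0 = t0 * M → M * M = 1 := by decide +kernel

set_option maxRecDepth 100000 in
theorem not_conj : ∀ M : Q, M * v0 ≠ t0 * M := by decide +kernel

/-- the first vector -/
def e0 : V3 := ![1, 0, 0]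

set_option maxRecDepth 100000 in
theorem weight : ∀ M : Q, M * M ≠ 1 ∧ M * M * (M * M) = 1 → ∀ u : V3, M • u = u →
    u = 0 ∨ ∃ N : Q, N • u = e0 := by decide +kernel

theorem w0_facts : w0 • e0 = e0 ∧ w0 * w0 ≠ 1 ∧ w0 * w0 * (w0 * w0) = 1 := by decide +kernel

theorem v0_e0 : v0 • e0 = e0 := by decide +kernel

theorem et_facts : t0 • (![1, 1, 0] : V3) = ![1, 1, 0] ∧ (![1, 1, 0] : V3) ≠ 0 := by decide +kernel

set_option maxRecDepth 100000 in
theorem V_comm : ∀ u : V3, ∃ a b : V3, u = (a - v0 • a) + s0 • (b - v0 • b) := by decide +kernel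

set_option maxRecDepth 100000 in
theorem V4_conj : ∀ M : Q, M.1.p = 1 → M ≠ 1 → ∃ N : Q, M = N * v0 * N⁻¹ := by decide +kernel

set_option maxRecDepth 100000 in
theorem s0_word : ∀ M : Q, M.1.p ≠ 1 → ∃ N v : Q, v.1.p = 1 ∧
    (s0 = v * (M * N * M⁻¹ * N⁻¹) ∨ s0 = v * M) := by decide +kernel

theorem mk_mul (u v : V3) (M N : Q) : (⟨u, M⟩ : Md) * ⟨v, N⟩ = ⟨u + M • v, M * N⟩ := rfl

theorem mk_one : (⟨0, 1⟩ : Md) = 1 := rfl

/-! ### the situation -/

variable {G : Type*} [Group G] {H : Subgroup G}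

/-- the hypotheses -/
structure Loc (E : H ≃* Md) (J : Subgroup G) : Prop where
  mem : ∀ x : Md, kk E x ∈ J ↔ x.M = 1
  le : J ≤ H
  cen : ∀ j ∈ J, j ≠ 1 → Subgroup.centralizer ({j} : Set G) ≤ H
  sc : ∀ x ∈ J, ∀ g : G, g * x * g⁻¹ ∈ H → g * x * g⁻¹ ∈ J

theorem mem_pCore (E : H ≃* Md) (x : H) : x ∈ pCore 3 H ↔ (E x).M = 1 := by
  have h3 : Fact (Nat.Prime 3) := ⟨Nat.prime_three⟩
  constructor
  · intro hx
    have hn : (pCore 3 H).Normal := Cfsg.Agent.Lib.Cores.pCore_normal 3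
    have hp : IsPGroup 3 (pCore 3 H) := Cfsg.Agent.Lib.Cores.pCore_isPGroup 3
    have key : ∀ y ∈ pCore 3 H, (E y).M * (E y).M = 1 → (E y).M = 1 := by
      intro y hy h2
      obtain ⟨k, hk⟩ := hp ⟨y, hy⟩
      have h4 : y ^ 3 ^ k = 1 := congrArg Subtype.val hk
      have h5 : (E y).M ^ 3 ^ k = 1 := by
        rw [← pow_M, ← map_pow, h4, map_one]
        rfl
      have h6 : Odd (3 ^ k) := Odd.pow (by decide)
      obtain ⟨m, hm⟩ := h6
      rw [hm, pow_succ, pow_mul, pow_two, h2, one_pow, one_mul] at h5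
      exact h5
    by_contra hcon
    obtain ⟨N, hN⟩ := three_core _ hcon
    rcases hN with ⟨h1, h2⟩ | h1 | ⟨h1, h2⟩
    · have h4 : E.symm ⟨0, N⟩ * x * (E.symm ⟨0, N⟩)⁻¹ * x⁻¹ ∈ pCore 3 H :=
        (pCore 3 H).mul_mem (hn.conj_mem _ hx _) ((pCore 3 H).inv_mem hx)
      have h5 : (E (E.symm ⟨0, N⟩ * x * (E.symm ⟨0, N⟩)⁻¹ * x⁻¹)).M =
          N * (E x).M * N⁻¹ * (E x).M⁻¹ := by
        rw [map_mul, map_mul, map_mul, map_inv, map_inv, MulEquiv.apply_symm_apply]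
        rfl
      apply h2
      rw [← h5]
      apply key _ h4
      rw [h5]
      exact h1
    · exact hcon (key x hx h1)
    · have h4 : x * x ∈ pCore 3 H := (pCore 3 H).mul_mem hx hx
      have h5 : (E (x * x)).M = (E x).M * (E x).M := by
        rw [map_mul]; rfl
      apply h2
      rw [← h5]
      apply key _ h4
      rw [h5]
      exact h1
  · intro hx
    let V : Subgroup Md := (Sd.proj : Md →* Q).ker
    have hV : ∀ y : Md, y ∈ V ↔ y.M = 1 := fun y => Iff.rfl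
    have hVn : (V.comap (E : H →* Md)).Normal := by
      have : V.Normal := MonoidHom.normal_ker _
      exact this.comap _
    have hVp : IsPGroup 3 (V.comap (E : H →* Md)) := by
      intro y
      refine ⟨1, ?_⟩
      apply Subtype.ext
      apply E.injective
      have h4 : (E (y : H)).M = 1 := y.2
      show E ((y : H) ^ 3 ^ 1) = E 1
      rw [map_pow, map_one, pow_one]
      exact cube_V h4
    exact Cfsg.Agent.Lib.Cores.le_pCore hVn hVp hx

theorem Loc.of {E : H ≃* Md} {J : Subgroup G} (hJ : J = (pCore 3 H).map H.subtype)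
    (hC : ∀ j ∈ J, j ≠ 1 → Subgroup.centralizer ({j} : Set G) ≤ H) (hsc : IsStronglyClosed J H) :
    Loc E J where
  mem x := by
    rw [hJ]
    constructor
    · rintro ⟨y, hy, h⟩
      have h1 : y = E.symm x := Subtype.ext h
      have h2 := (mem_pCore E y).1 hy
      rwa [h1, MulEquiv.apply_symm_apply] at h2
    · intro h
      refine ⟨E.symm x, (mem_pCore E _).2 ?_, rfl⟩
      rwa [MulEquiv.apply_symm_apply]
  le := hsc.1
  cen := hC
  sc := hsc.2

namespace Loc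

variable {E : H ≃* Md} {J : Subgroup G} (L : Loc E J)

include L

theorem exists_V {j : G} (hj : j ∈ J) : ∃ u : V3, kk E ⟨u, 1⟩ = j := by
  obtain ⟨x, rfl⟩ := exists_kk E (L.le hj)
  refine ⟨x.u, ?_⟩
  have h := (L.mem x).1 hj
  congr 1
  ext1
  · rfl
  · exact h.symm

theorem mem_V (u : V3) : kk E ⟨u, 1⟩ ∈ J := (L.mem _).2 rfl

theorem comm {x y : G} (hx : x ∈ J) (hy : y ∈ J) : x * y = y * x := by
  obtain ⟨u, rfl⟩ := L.exists_V hx
  obtain ⟨v, rfl⟩ := L.exists_V hy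
  rw [← kk_mul, ← kk_mul]
  congr 1
  ext1
  · simp [add_comm]
  · rfl

omit L in
theorem kk_V_ne {u : V3} (hu : u ≠ 0) : kk E ⟨u, 1⟩ ≠ 1 := by
  rw [← kk_one E]
  intro h
  exact hu (congrArg Sd.u (kk_injective E h))

theorem normalizer_le [Finite G] {n : G} (hn : ∀ j ∈ J, n * j * n⁻¹ ∈ J) : n ∈ H := by
  obtain ⟨h1, h2, h3⟩ := w0_facts
  have he0 : e0 ≠ 0 := by decide
  have hj0 := L.mem_V e0
  obtain ⟨u, hu⟩ := L.exists_V (hn _ hj0)
  have hne : kk E ⟨e0, 1⟩ ≠ 1 := kk_V_ne he0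
  have hu0 : u ≠ 0 := by
    rintro rfl
    rw [mk_one, kk_one] at hu
    apply hne
    calc kk E ⟨e0, 1⟩ = n⁻¹ * (n * kk E ⟨e0, 1⟩ * n⁻¹) * n := by group
      _ = 1 := by rw [← hu]; group
  -- an element of order four
  have hc : kk E ⟨0, w0⟩ * kk E ⟨e0, 1⟩ = kk E ⟨e0, 1⟩ * kk E ⟨0, w0⟩ := by
    rw [← kk_mul, ← kk_mul, mk_mul, mk_mul, h1]
    simp
  have hc2 : n * kk E ⟨0, w0⟩ * n⁻¹ * kk E ⟨u, 1⟩ = kk E ⟨u, 1⟩ * (n * kk E ⟨0, w0⟩ * n⁻¹) := by
    rw [hu]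
    calc n * kk E ⟨0, w0⟩ * n⁻¹ * (n * kk E ⟨e0, 1⟩ * n⁻¹) =
        n * (kk E ⟨0, w0⟩ * kk E ⟨e0, 1⟩) * n⁻¹ := by group
      _ = n * (kk E ⟨e0, 1⟩ * kk E ⟨0, w0⟩) * n⁻¹ := by rw [hc]
      _ = _ := by group
  have hH : n * kk E ⟨0, w0⟩ * n⁻¹ ∈ H := by
    apply L.cen _ (L.mem_V u) (kk_V_ne hu0)
    rw [Subgroup.mem_centralizer_singleton_iff]
    exact hc2
  obtain ⟨y, hy⟩ := exists_kk E hH
  have hy4 : y * y * (y * y) = 1 := by
    apply kk_injective E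
    rw [kk_mul, kk_mul, kk_one, hy]
    calc n * kk E ⟨0, w0⟩ * n⁻¹ * (n * kk E ⟨0, w0⟩ * n⁻¹) *
        (n * kk E ⟨0, w0⟩ * n⁻¹ * (n * kk E ⟨0, w0⟩ * n⁻¹)) =
        n * (kk E ⟨0, w0⟩ * kk E ⟨0, w0⟩ * (kk E ⟨0, w0⟩ * kk E ⟨0, w0⟩)) * n⁻¹ := by group
      _ = 1 := by
        rw [← kk_mul, ← kk_mul, mk_mul, mk_mul, h3]
        simp only [smul_zero, add_zero, mk_one, kk_one]
        group
  have hy2 : y * y ≠ 1 := by
    intro h
    apply h2
    have h4 : kk E ⟨0, w0⟩ * kk E ⟨0, w0⟩ = 1 := by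
      calc kk E ⟨0, w0⟩ * kk E ⟨0, w0⟩ = n⁻¹ * (n * kk E ⟨0, w0⟩ * n⁻¹ * (n * kk E ⟨0, w0⟩ * n⁻¹)) * n := by
            group
        _ = n⁻¹ * kk E (y * y) * n := by rw [kk_mul, hy]
        _ = 1 := by rw [h, kk_one]; group
    rw [← kk_mul, mk_mul, ← kk_one E] at h4
    exact congrArg Sd.M (kk_injective E h4)
  have hyM : y.M * y.M ≠ 1 := by
    intro h
    apply hy2
    have h4 : (y * y).M = 1 := h
    have h5 := cube_V h4
    rw [pow_succ', pow_two, hy4, mul_one] at h5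
    exact h5
  have hyM4 : y.M * y.M * (y.M * y.M) = 1 := congrArg Sd.M hy4
  have hyu : y.M • u = u := by
    rw [← hy, ← kk_mul, ← kk_mul] at hc2
    have h4 := congrArg Sd.u (kk_injective E hc2)
    simp only [Sd.mul_u, one_smul] at h4
    rw [add_comm] at h4
    exact add_right_cancel h4
  rcases weight _ ⟨hyM, hyM4⟩ _ hyu with h4 | ⟨N, hN⟩
  · exact absurd h4 hu0
  · have h5 : kk E ⟨0, N⟩ * n ∈ H := by
      apply L.cen _ hj0 hne
      rw [Subgroup.mem_centralizer_singleton_iff]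
      have h6 : kk E ⟨0, N⟩ * kk E ⟨u, 1⟩ = kk E ⟨e0, 1⟩ * kk E ⟨0, N⟩ := by
        rw [← kk_mul, ← kk_mul, mk_mul, mk_mul, hN]
        simp
      calc kk E ⟨0, N⟩ * n * kk E ⟨e0, 1⟩ = kk E ⟨0, N⟩ * (n * kk E ⟨e0, 1⟩ * n⁻¹) * n := by group
        _ = kk E ⟨0, N⟩ * kk E ⟨u, 1⟩ * n := by rw [hu]
        _ = kk E ⟨e0, 1⟩ * (kk E ⟨0, N⟩ * n) := by rw [h6, mul_assoc]
    exact (Subgroup.mul_mem_cancel_left H (kk_mem E _)).1 h5

/-- `J` is a trivial intersection subgroup -/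
theorem ti [Finite G] {g x : G} (hx : x ∈ J) (hx1 : x ≠ 1) (hg : g * x * g⁻¹ ∈ H) : g ∈ H := by
  have h0 := L.sc x hx g hg
  have h1 : g * x * g⁻¹ ≠ 1 := by
    intro h
    apply hx1
    calc x = g⁻¹ * (g * x * g⁻¹) * g := by group
      _ = 1 := by rw [h]; group
  apply L.normalizer_le
  intro t ht
  apply L.sc t ht
  apply L.cen _ h0 h1
  rw [Subgroup.mem_centralizer_singleton_iff]
  calc g * t * g⁻¹ * (g * x * g⁻¹) = g * (t * x) * g⁻¹ := by group
    _ = g * (x * t) * g⁻¹ := by rw [L.comm ht hx]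
    _ = g * x * g⁻¹ * (g * t * g⁻¹) := by group

theorem conj_mem {h j : G} (hh : h ∈ H) (hj : j ∈ J) : h * j * h⁻¹ ∈ J := by
  obtain ⟨x, rfl⟩ := exists_kk E hh
  obtain ⟨u, rfl⟩ := L.exists_V hj
  rw [← kk_inv, ← kk_mul, ← kk_mul, L.mem]
  simp

omit L in
theorem conj_pow' (g x : G) (n : ℕ) : (g * x * g⁻¹) ^ n = g * x ^ n * g⁻¹ := conj_pow

/-- the Sylow subgroup of the centralizer of `t` -/
theorem exists_conj [Finite G] {x : G} (hx : x * kk E xt = kk E xt * x) (hx3 : x ^ 3 = 1) :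
    ∃ c : G, c * kk E xt = kk E xt * c ∧ c * x * c⁻¹ ∈ J := by
  have h3 : Fact (Nat.Prime 3) := ⟨Nat.prime_three⟩
  obtain ⟨ht1, ht2⟩ := et_facts
  set C : Subgroup G := Subgroup.centralizer ({kk E xt} : Set G) with hC
  have hmC : ∀ c : G, c ∈ C ↔ c * kk E xt = kk E xt * c := fun c =>
    Subgroup.mem_centralizer_singleton_iff
  have hJ3 : ∀ j ∈ J, j ^ 3 = 1 := by
    intro j hj
    obtain ⟨u, rfl⟩ := L.exists_V hj
    rw [← kk_pow, cube_V rfl, kk_one]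
  have hS : ∃ S : Sylow 3 C, (S : Subgroup C) = J.subgroupOf C := by
    apply Classification.InvCentPL.Tri.sylow_of_pelt_normalizer
    · intro y
      exact ⟨1, Subtype.ext (Subtype.ext (by
        rw [pow_one]; exact hJ3 _ y.2))⟩
    · intro c hc k hk
      -- a nontrivial element
      have he : kk E ⟨![1, 1, 0], 1⟩ ∈ C := by
        rw [hmC, ← kk_mul, ← kk_mul]
        congr 1
        ext1
        · simp [xt, ht1]
        · simp [xt]
      have h4 := (Subgroup.mem_normalizer_iff.1 hc ⟨_, he⟩).1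
        (Subgroup.mem_subgroupOf.2 (L.mem_V ![1, 1, 0]))
      have h5 : (c : G) * kk E ⟨![1, 1, 0], 1⟩ * (c : G)⁻¹ ∈ J := h4
      have h6 : (c : G) ∈ H := L.ti (L.mem_V ![1, 1, 0]) (kk_V_ne ht2) (L.le h5)
      obtain ⟨y, hy⟩ := exists_kk E h6
      have h7 := (hmC c).1 c.2
      rw [← hy, ← kk_mul, ← kk_mul] at h7
      have h8 : y.M * t0 = t0 * y.M := congrArg Sd.M (kk_injective E h7)
      have h9 := cen_t0 _ h8
      have h10 : y ^ 3 ^ k = 1 := by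
        apply kk_injective E
        rw [kk_pow, hy, kk_one]
        exact congrArg Subtype.val hk
      have h11 : y.M ^ 3 ^ k = 1 := by
        rw [← pow_M, h10]; rfl
      have h12 : Odd (3 ^ k) := Odd.pow (by decide)
      obtain ⟨m, hm⟩ := h12
      rw [hm, pow_succ, pow_mul, pow_two, h9, one_pow, one_mul] at h11
      show (c : G) ∈ J
      rw [← hy, L.mem]
      exact h11
  obtain ⟨S, hS⟩ := hS
  let x' : C := ⟨x, (hmC x).2 hx⟩
  have hx' : x' ^ 3 = 1 := Subtype.ext hx3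
  have hP : IsPGroup 3 (Subgroup.zpowers x') := by
    rintro ⟨_, k, rfl⟩
    refine ⟨1, Subtype.ext ?_⟩
    show (x' ^ k) ^ 3 ^ 1 = 1
    rw [pow_one, ← zpow_natCast, zpow_comm, zpow_natCast, hx', one_zpow]
  obtain ⟨R, hR⟩ := hP.exists_le_sylow
  obtain ⟨a, ha⟩ := MulAction.exists_smul_eq C R S
  have h4 : x' ∈ (R : Subgroup C) := hR (Subgroup.mem_zpowers x')
  have h5 : a * x' * a⁻¹ ∈ (S : Subgroup C) := by
    rw [← ha]
    show a * x' * a⁻¹ ∈ MulAut.conj a • (R : Subgroup C)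
    rw [Subgroup.mem_pointwise_smul_iff_inv_smul_mem]
    have : (MulAut.conj a)⁻¹ • (a * x' * a⁻¹) = x' := by
      rw [← map_inv, MulAut.smul_def, MulAut.conj_apply]
      group
    rw [this]
    exact h4
  rw [hS] at h5
  exact ⟨a, (hmC a).1 a.2, h5⟩

theorem fus3 [Finite G] : Fus3 E where
  fus := by
    intro x hx g hg
    obtain ⟨n, h1, h2⟩ := hx
    have h3 : kk E (x ^ n) ∈ J := (L.mem _).2 h1
    apply L.ti h3
    · rw [← kk_one E]
      exact fun h => h2 (kk_injective E h)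
    · rw [kk_pow, ← conj_pow']
      exact H.pow_mem hg n
  vt := by
    intro g hg
    have he0 : e0 ≠ 0 := by decide
    have hc : kk E ⟨e0, 1⟩ * kk E xv = kk E xv * kk E ⟨e0, 1⟩ := by
      rw [← kk_mul, ← kk_mul]
      congr 1
      ext1
      · simp [xv, v0_e0]
      · simp [xv]
    have h1 : g * kk E ⟨e0, 1⟩ * g⁻¹ * kk E xt = kk E xt * (g * kk E ⟨e0, 1⟩ * g⁻¹) := by
      rw [← hg]
      calc g * kk E ⟨e0, 1⟩ * g⁻¹ * (g * kk E xv * g⁻¹) =
          g * (kk E ⟨e0, 1⟩ * kk E xv) * g⁻¹ := by group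
        _ = g * (kk E xv * kk E ⟨e0, 1⟩) * g⁻¹ := by rw [hc]
        _ = _ := by group
    obtain ⟨c, hc1, hc2⟩ := L.exists_conj h1 (by
      rw [conj_pow', ← kk_pow, cube_V rfl, kk_one]
      group)
    have h2 : c * g ∈ H := by
      apply L.ti (L.mem_V e0) (kk_V_ne he0)
      have : c * g * kk E ⟨e0, 1⟩ * (c * g)⁻¹ = c * (g * kk E ⟨e0, 1⟩ * g⁻¹) * c⁻¹ := by group
      rw [this]
      exact L.le hc2
    obtain ⟨y, hy⟩ := exists_kk E h2
    have h3 : kk E y * kk E xv = kk E xt * kk E y := by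
      rw [hy]
      calc c * g * kk E xv = c * (g * kk E xv * g⁻¹) * g := by group
        _ = c * kk E xt * g := by rw [hg]
        _ = kk E xt * (c * g) := by rw [hc1, mul_assoc]
    rw [← kk_mul, ← kk_mul] at h3
    have h4 : y.M * v0 = t0 * y.M := congrArg Sd.M (kk_injective E h3)
    exact not_conj _ h4

end Loc

end Cfsg.Agent.H431.Alt
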