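import Mathlib
import Cfsg.Agent.H431.AltLocal

/-!
# End of the proof: reduction to the case `3^3 : 2^2`
-/

set_option autoImplicit false

open Cfsg

namespace Cfsg.Agent.H431.Alt

open Equiv Equiv.Perm

/-! ### the subgroup `3^3 : 2^2` of the model -/

/-- the affine maps of the line -/
def aff' (e : ℤˣ) (u : ZMod 3) : Perm (ZMod 3) where
  toFun a := ((e : ℤ) : ZMod 3) * a + u
  invFun a := ((e : ℤ) : ZMod 3) * (a - u)
  left_inv := by unfold Function.LeftInverse; revert e u; decide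
  right_inv := by unfold Function.RightInverse Function.LeftInverse; revert e u; decide

/-- the affine maps of the line -/
def aff (e : ℤˣ) (u : ZMod 3) : Perm (Fin 3) := aff' e u

theorem aff_mul : ∀ (e e' : ℤˣ) (u u' : ZMod 3),
    aff (e * e') (u + ((e : ℤ) : ZMod 3) * u') = aff e u * aff e' u' := by decide

theorem sign_aff : ∀ (e : ℤˣ) (u : ZMod 3), sign (aff e u) = e := by decide

theorem aff_inj : ∀ (e e' : ℤˣ) (u u' : ZMod 3), aff e u = aff e' u' → e = e' ∧ u = u' := by decide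

theorem aff_one : aff 1 0 = 1 := by decide

/-- the permutation of the axes -/
def axes : Q →* Perm (Fin 3) where
  toFun M := M.1.p
  map_one' := rfl
  map_mul' _ _ := rfl

/-- the subgroup of index six -/
def C0 : Subgroup Md := Sd.SC axes.ker

theorem mem_C0 {x : Md} : x ∈ C0 ↔ x.M.1.p = 1 := Iff.rfl

theorem card_C0 : Nat.card C0 = 108 := by
  rw [C0, Sd.card_SC, Nat.card_eq_fintype_card]
  have h : Nat.card axes.ker = 4 := by
    have h1 : Nat.card axes.ker = Nat.card {M : Q // M.1.p = 1} := Nat.card_congr (Equiv.refl _)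
    rw [h1, Nat.card_eq_fintype_card]
    decide +kernel
  rw [h]
  simp

theorem prod_C0 {x : Md} (hx : x ∈ C0) : x.M.1.e 0 * x.M.1.e 1 * x.M.1.e 2 = 1 := by
  have h : SP.det x.M.1 = 1 := x.M.2
  have h1 : SP.det x.M.1 = (x.M.1.e 0 * x.M.1.e 1 * x.M.1.e 2) * sign x.M.1.p := rfl
  rw [h1, mem_C0.1 hx, map_one, mul_one] at h
  exact h

/-- the homomorphism onto the model of `S3701` -/
def toK : C0 →* Block.K where
  toFun x := ⟨fun i => aff (x.1.M.1.e i) (x.1.u i), by
    rw [Block.mem_K, sign_aff, sign_aff, sign_aff]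
    exact prod_C0 x.2⟩
  map_one' := by
    apply Subtype.ext
    funext i
    exact aff_one
  map_mul' x y := by
    apply Subtype.ext
    funext i
    show aff (x.1.M.1.e i * y.1.M.1.e (x.1.M.1.p⁻¹ i))
      (x.1.u i + ((x.1.M.1.e i : ℤ) : ZMod 3) * y.1.u (x.1.M.1.p⁻¹ i)) =
      aff (x.1.M.1.e i) (x.1.u i) * aff (y.1.M.1.e i) (y.1.u i)
    rw [mem_C0.1 x.2]
    exact aff_mul _ _ _ _

theorem toK_injective : Function.Injective toK := by
  intro x y h
  have h1 : ∀ i, x.1.M.1.e i = y.1.M.1.e i ∧ x.1.u i = y.1.u i := fun i =>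
    aff_inj _ _ _ _ (congrFun (congrArg Subtype.val h) i)
  apply Subtype.ext
  ext1
  · funext i
    exact (h1 i).2
  · apply Subtype.ext
    ext1
    · funext i
      exact (h1 i).1
    · rw [mem_C0.1 x.2, mem_C0.1 y.2]

theorem toK_bijective : Function.Bijective toK := by
  have : Finite Block.K := Nat.finite_of_card_ne_zero (by rw [Block.card_K]; norm_num)
  have : Finite C0 := Nat.finite_of_card_ne_zero (by rw [card_C0]; norm_num)
  rw [Nat.bijective_iff_injective_and_card]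
  exact ⟨toK_injective, by rw [card_C0, Block.card_K]⟩

/-- the isomorphism with the model of `S3701` -/
noncomputable def equivK : C0 ≃* Block.K := MulEquiv.ofBijective toK toK_bijective

namespace Loc

variable {G : Type*} [Group G] {H : Subgroup G} {E : H ≃* Md} {J : Subgroup G} (L : Loc E J)

/-- the normal subgroup meets `H` in `3^3 : 2^2` -/
theorem mem_normal_iff {N : Subgroup G} (hN : N.Normal) (hv : kk E xv ∈ N)
    (hs : kk E ⟨0, s0⟩ ∉ N) (x : Md) : kk E x ∈ N ↔ x ∈ C0 := by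
  -- the elements of `J`
  have h1 : ∀ a : V3, kk E ⟨a - v0 • a, 1⟩ ∈ N := by
    intro a
    have h2 : (⟨a - v0 • a, 1⟩ : Md) = ⟨a, 1⟩ * xv * (⟨a, 1⟩ : Md)⁻¹ * xv⁻¹ := by
      ext1
      · simp [xv, sub_eq_add_neg]
      · simp [xv]
    rw [h2, kk_mul, kk_mul, kk_mul, kk_inv, kk_inv]
    exact N.mul_mem (hN.conj_mem _ hv _) (N.inv_mem hv)
  have hV : ∀ u : V3, kk E ⟨u, 1⟩ ∈ N := by
    intro u
    obtain ⟨a, b, rfl⟩ := V_comm u
    have h2 : (⟨(a - v0 • a) + s0 • (b - v0 • b), 1⟩ : Md) =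
        ⟨a - v0 • a, 1⟩ * ((⟨0, s0⟩ : Md) * ⟨b - v0 • b, 1⟩ * (⟨0, s0⟩ : Md)⁻¹) := by
      ext1
      · simp
      · simp
    rw [h2, kk_mul, kk_mul, kk_mul, kk_inv]
    exact N.mul_mem (h1 a) (hN.conj_mem _ (h1 b) _)
  have hdec : ∀ x : Md, x = ⟨x.u, 1⟩ * ⟨0, x.M⟩ := by
    intro x
    ext1
    · simp
    · simp
  have hred : ∀ x : Md, kk E x ∈ N ↔ kk E ⟨0, x.M⟩ ∈ N := by
    intro x
    conv_lhs => rw [hdec x, kk_mul]
    exact Subgroup.mul_mem_cancel_left N (hV _)
  have hmulM : ∀ M M' : Q, kk E ⟨0, M * M'⟩ = kk E ⟨0, M⟩ * kk E ⟨0, M'⟩ := by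
    intro M M'
    rw [← kk_mul, mk_mul]
    simp
  have hinvM : ∀ M : Q, kk E ⟨0, M⁻¹⟩ = (kk E ⟨0, M⟩)⁻¹ := by
    intro M
    rw [← kk_inv]
    congr 1
    ext1
    · simp
    · simp
  have hV4 : ∀ M : Q, M.1.p = 1 → kk E ⟨0, M⟩ ∈ N := by
    intro M hM
    by_cases h : M = 1
    · rw [h, mk_one, kk_one]
      exact N.one_mem
    · obtain ⟨N', hN'⟩ := V4_conj M hM h
      rw [hN', hmulM, hmulM, hinvM]
      exact hN.conj_mem _ hv _
  rw [hred x, mem_C0]
  constructor
  · intro h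
    by_contra hcon
    obtain ⟨N', v, hv1, h2⟩ := s0_word _ hcon
    apply hs
    rcases h2 with h2 | h2
    · rw [h2, hmulM, hmulM, hmulM, hmulM, hinvM, hinvM]
      refine N.mul_mem (hV4 v hv1) ?_
      have h3 := hN.conj_mem _ (N.inv_mem h) (kk E ⟨0, N'⟩)
      have h4 : kk E ⟨0, x.M⟩ * kk E ⟨0, N'⟩ * (kk E ⟨0, x.M⟩)⁻¹ * (kk E ⟨0, N'⟩)⁻¹ =
          kk E ⟨0, x.M⟩ * (kk E ⟨0, N'⟩ * (kk E ⟨0, x.M⟩)⁻¹ * (kk E ⟨0, N'⟩)⁻¹) := by group
      rw [h4]
      exact N.mul_mem h h3
    · rw [h2, hmulM]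
      exact N.mul_mem (hV4 v hv1) h
  · intro h
    exact hV4 _ h

include L in
theorem card_J : Nat.card J = 27 := by
  have h : Nat.card J = Nat.card V3 := by
    symm
    apply Nat.card_congr
    refine Equiv.ofBijective (fun u => (⟨kk E ⟨u, 1⟩, L.mem_V u⟩ : J)) ⟨?_, ?_⟩
    · intro u v huv
      have h1 : kk E ⟨u, 1⟩ = kk E ⟨v, 1⟩ := congrArg (fun j : J => (j : G)) huv
      exact congrArg Sd.u (kk_injective E h1)
    · rintro ⟨j, hj⟩
      obtain ⟨u, hu⟩ := L.exists_V hj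
      exact ⟨u, Subtype.ext hu⟩
  rw [h, Nat.card_eq_fintype_card]
  simp

include L in
/-- **Theorem.** -/
theorem eq_top [Finite G] : H = ⊤ := by
  obtain ⟨N, hN, hv, hs⟩ := exists_normal L.fus3
  have hmem := mem_normal_iff hN hv hs
  have hJN : J ≤ N := by
    intro j hj
    obtain ⟨u, rfl⟩ := L.exists_V hj
    exact (hmem _).2 rfl
  -- the isomorphism of `N ∩ H` with the model
  have hE : ∀ n : N, (hn : (n : G) ∈ H) → E ⟨n, hn⟩ ∈ C0 := by
    intro n hn
    rw [← hmem]
    have : kk E (E ⟨n, hn⟩) = n := by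
      unfold kk
      rw [MulEquiv.symm_apply_apply]
    rw [this]
    exact n.2
  let f : (H.subgroupOf N) ≃* C0 :=
    { toFun := fun n => ⟨E ⟨(n : N), n.2⟩, hE n n.2⟩
      invFun := fun x => ⟨⟨kk E x, (hmem x).2 x.2⟩, kk_mem E x⟩
      left_inv := by
        intro n
        apply Subtype.ext
        apply Subtype.ext
        show kk E (E ⟨(n : N), n.2⟩) = ((n : N) : G)
        unfold kk
        rw [MulEquiv.symm_apply_apply]
      right_inv := by
        intro x
        apply Subtype.ext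
        exact E.apply_symm_apply _
      map_mul' := by
        intro a b
        apply Subtype.ext
        show E _ = E _ * E _
        rw [← map_mul]
        rfl }
  have he0 : e0 ≠ 0 := by decide
  have hS : Block.Sit (H.subgroupOf N) (f.trans equivK) (J.subgroupOf N) := by
    refine ⟨?_, ?_, ?_, ?_⟩
    · intro n hn
      exact L.le hn
    · rw [← L.card_J]
      exact Nat.card_congr (Subgroup.subgroupOfEquivOfLe hJN).toEquiv
    · ext n
      constructor
      · intro hn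
        have h1 := (Subgroup.mem_normalizer_iff.1 hn ⟨_, hJN (L.mem_V e0)⟩).1 (L.mem_V e0)
        exact L.ti (L.mem_V e0) (kk_V_ne he0) (L.le h1)
      · intro hn
        apply Subgroup.mem_normalizer_fintype
        intro j hj
        exact L.conj_mem hn hj
    · intro t ht ht1 c hc
      have h1 : (t : G) ≠ 1 := fun h => ht1 (Subtype.ext h)
      apply L.cen _ ht h1
      rw [Subgroup.mem_centralizer_singleton_iff] at hc ⊢
      exact congrArg Subtype.val hc
  have htop := hS.eq_top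
  have hNH : N ≤ H := by
    intro n hn
    have h1 : (⟨n, hn⟩ : N) ∈ H.subgroupOf N := by rw [htop]; trivial
    exact h1
  rw [eq_top_iff]
  intro g _
  apply L.ti (L.mem_V e0) (kk_V_ne he0)
  exact hNH (hN.conj_mem _ (hJN (L.mem_V e0)) g)

end Loc

end Cfsg.Agent.H431.Alt
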