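import Mathlib
import Cfsg.Agent.H431.AltCl
import Cfsg.Agent.H431.AltLatMain

/-!
# Induction from a subgroup `3^3 : S_4` with controlled fusion
-/

set_option autoImplicit false

open Cfsg

namespace Cfsg.Agent.H431.Alt

open Cfsg.Agent.Characters.Core Cfsg.Agent.OddOrderCharacters.VChar
open Cfsg.Agent.H431.ExcChar Cfsg.Agent.OddOrderCharacters.IndRes

open scoped ComplexConjugate

attribute [local irreducible] cl EE NN af

theorem Cyc.supp {n : ℕ} [NeZero n] {c : Fin n → Q} {l : V3} {v : Fin n → ℂ} (h : Cyc c l v)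
    (hD : ∀ k u, dt l u ≠ 0 → DD ⟨u, c k⟩) {x : Md} (hx : h.ch x ≠ 0) : DD x := by
  rw [Cyc.ch, h.linDat.th_apply] at hx
  obtain ⟨y, -, hy⟩ := Finset.exists_ne_zero_of_sum_ne_zero (right_ne_zero_of_mul hx)
  apply DD_conj y
  generalize y⁻¹ * x * y = z at hy
  unfold af at hy
  have h1 := left_ne_zero_of_mul hy
  have h2 := right_ne_zero_of_mul hy
  have h3 : z.M ∈ h.sub := by
    by_contra hcon
    exact h2 (h.linDat.out _ hcon)
  obtain ⟨k, hk⟩ := h3
  have h4 : z = ⟨z.u, c k⟩ := Sd.ext rfl hk.symm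
  rw [h4]
  apply hD
  intro h5
  apply h1
  rw [lam_apply, h5]
  simp

section

variable {G : Type*} [Group G]

variable {H : Subgroup G} (E : H ≃* Md)

/-- the two involutions -/
def kk (x : Md) : G := ((E.symm x : H) : G)

theorem kk_mul (x y : Md) : kk E (x * y) = kk E x * kk E y := by
  unfold kk
  rw [map_mul]
  rfl

theorem kk_mem (x : Md) : kk E x ∈ H := (E.symm x).2

theorem kk_injective : Function.Injective (kk E) := fun _ _ h =>
  E.symm.injective (Subtype.ext h)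

theorem kk_inv (x : Md) : kk E x⁻¹ = (kk E x)⁻¹ := by
  unfold kk
  rw [map_inv]
  rfl

theorem kk_one : kk E 1 = 1 := by
  unfold kk
  rw [map_one]
  rfl

theorem kk_pow (x : Md) (n : ℕ) : kk E (x ^ n) = (kk E x) ^ n := by
  unfold kk
  rw [map_pow]
  rfl

theorem exists_kk {g : G} (hg : g ∈ H) : ∃ x, kk E x = g :=
  ⟨E ⟨g, hg⟩, by unfold kk; rw [MulEquiv.symm_apply_apply]⟩

/-- the hypotheses on fusion -/
structure Fus3 : Prop where
  fus : ∀ x : Md, DD x → ∀ g : G, g * kk E x * g⁻¹ ∈ H → g ∈ H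
  vt : ∀ g : G, g * kk E xv * g⁻¹ ≠ kk E xt

variable [Fintype G] [Fintype H]

/-- the induced function -/
noncomputable def YY3 (θ : Md → ℂ) : G → ℂ := indFun H (fun y => θ (E y))

variable {E} {θ θ' : Md → ℂ}

omit [Fintype H] in
theorem gen_YY3 (hθ : IsGeneralizedCharacter Md θ) : IsGeneralizedCharacter G (YY3 E θ) :=
  isGeneralizedCharacter_indFun H (gen_comp (E : H →* Md) hθ)

omit [Fintype H] in
theorem YY3_sub (θ θ' : Md → ℂ) : YY3 E (θ - θ') = YY3 E θ - YY3 E θ' :=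
  indFun_sub H (fun y => θ (E y)) (fun y => θ' (E y))

omit [Fintype G] in
theorem inner_comp (θ θ' : Md → ℂ) :
    classInner (fun y : H => θ (E y)) (fun y : H => θ' (E y)) = classInner θ θ' := by
  rw [classInner_def, classInner_def, Nat.card_congr E.toEquiv]
  congr 1
  exact Equiv.sum_comp E.toEquiv (fun x => θ x * conj (θ' x))

theorem inner_YY3 (F : Fus3 E) (hθ' : IsGeneralizedCharacter Md θ') (hs : ∀ x, θ x ≠ 0 → DD x) :
    classInner (YY3 E θ) (YY3 E θ') = classInner θ θ' := by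
  have hcl : IsClassFunction H (fun y : H => θ' (E y)) :=
    gen_isClassFunction (gen_comp (E : H →* Md) hθ')
  rw [YY3, YY3, classInner_ind_ind H hcl, inner_comp]
  intro y hy g hg
  apply F.fus (E y) (hs _ hy)
  unfold kk
  rw [MulEquiv.symm_apply_apply]
  exact hg

theorem inner_YY3_one : classInner (YY3 E θ) 1 = classInner θ 1 := by
  rw [YY3, classInner_indFun_left H _ (isIrr_isClassFunction isIrr_one)]
  exact inner_comp θ 1

omit [Fintype G] [Fintype H] in
theorem kk_mul_self {x : Md} (hx : x * x = 1) : kk E x * kk E x = 1 := by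
  rw [← kk_mul, hx, kk_one]

omit [Fintype H] in
/-- the value at elements of order at most 2 -/
theorem YY3_eq_zero (hs : ∀ x, θ x ≠ 0 → DD x) {g : G} (hg : g * g = 1) : YY3 E θ g = 0 := by
  rw [YY3, indFun_apply, Finset.sum_eq_zero, mul_zero]
  intro x _
  by_cases hx : x⁻¹ * g * x ∈ H
  · rw [extendByZero_of_mem H _ hx]
    by_contra hcon
    apply not_DD _ (hs _ hcon)
    rw [← map_mul, ← map_one E]
    congr 1
    apply Subtype.ext
    show x⁻¹ * g * x * (x⁻¹ * g * x) = 1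
    calc _ = x⁻¹ * (g * g) * x := by group
      _ = 1 := by rw [hg]; group
  · exact extendByZero_of_notMem H _ hx

/-- number of elements conjugating `k` to `p` -/
theorem card_conj (k g : G) [DecidableEq G] :
    (Finset.univ.filter (fun a => a * k * a⁻¹ = g * k * g⁻¹)).card =
      Nat.card (Subgroup.centralizer ({k} : Set G)) := by
  classical
  rw [Nat.card_eq_fintype_card, Fintype.card_subtype]
  refine Finset.card_bij' (fun a _ => g⁻¹ * a) (fun a _ => g * a) ?_ ?_ ?_ ?_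
  · intro a ha
    rw [Finset.mem_filter] at ha ⊢
    refine ⟨Finset.mem_univ _, ?_⟩
    rw [Subgroup.mem_centralizer_singleton_iff]
    have h := ha.2
    calc g⁻¹ * a * k = g⁻¹ * (a * k * a⁻¹) * a := by group
      _ = g⁻¹ * (g * k * g⁻¹) * a := by rw [h]
      _ = k * (g⁻¹ * a) := by group
  · intro a ha
    rw [Finset.mem_filter, Subgroup.mem_centralizer_singleton_iff] at ha
    rw [Finset.mem_filter]
    refine ⟨Finset.mem_univ _, ?_⟩
    have h := ha.2
    calc g * a * k * (g * a)⁻¹ = g * (a * k) * a⁻¹ * g⁻¹ := by group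
      _ = g * (k * a) * a⁻¹ * g⁻¹ := by rw [h]
      _ = g * k * g⁻¹ := by group
  · intro a _; group
  · intro a _; group

/-- representatives of the classes of involutions -/
structure Rep (E : H ≃* Md) (T : Finset Q) (x₀ : Md) : Prop where
  mem : x₀ ∈ cl T
  trans : ∀ x ∈ cl T, ∃ y : Md, y * x * y⁻¹ = x₀
  fus : ∀ g : G, g * kk E x₀ * g⁻¹ ∈ H → ∃ x ∈ cl T, kk E x = g * kk E x₀ * g⁻¹

omit [Fintype G] [Fintype H] in
theorem invol_of_conj {x₀ : Md} (h2 : x₀ * x₀ = 1) (h1 : x₀ ≠ 1) {g : G}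
    {x : Md} (hx : kk E x = g * kk E x₀ * g⁻¹) : x * x = 1 ∧ x ≠ 1 := by
  constructor
  · apply kk_injective E
    rw [kk_mul, kk_one, hx]
    calc g * kk E x₀ * g⁻¹ * (g * kk E x₀ * g⁻¹) = g * (kk E x₀ * kk E x₀) * g⁻¹ := by group
      _ = 1 := by rw [kk_mul_self h2]; group
  · rintro rfl
    apply h1
    apply kk_injective E
    rw [kk_one] at hx ⊢
    calc kk E x₀ = g⁻¹ * (g * kk E x₀ * g⁻¹) * g := by group
      _ = 1 := by rw [← hx]; group

omit [Fintype G] [Fintype H] in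
theorem rep_v (F : Fus3 E) : Rep E Tv xv := by
  refine ⟨xv_mem, fun x hx => trans_cl Tv_trans hx, fun g hg => ?_⟩
  obtain ⟨x, hx⟩ := exists_kk E hg
  have h2 : xv * xv = 1 := (mem_cl.1 xv_mem).2
  have h1 : xv ≠ 1 := fun h => by
    have : xv.M = (1 : Md).M := by rw [h]
    exact absurd this (by decide)
  obtain ⟨h3, h4⟩ := invol_of_conj h2 h1 hx
  rcases exists_cl h3 h4 with h | h
  · exact ⟨x, h, hx⟩
  · exfalso
    obtain ⟨y, hy⟩ := trans_cl Tt_trans h
    apply F.vt (kk E y * g)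
    have : kk E (y * x * y⁻¹) = kk E xt := by rw [hy]; rfl
    rw [kk_mul, kk_mul, kk_inv, hx] at this
    rw [← this]
    group

omit [Fintype G] [Fintype H] in
theorem rep_t (F : Fus3 E) : Rep E Tt xt := by
  refine ⟨xt_mem, fun x hx => trans_cl Tt_trans hx, fun g hg => ?_⟩
  obtain ⟨x, hx⟩ := exists_kk E hg
  have h2 : xt * xt = 1 := (mem_cl.1 xt_mem).2
  have h1 : xt ≠ 1 := fun h => by
    have : xt.M = (1 : Md).M := by rw [h]
    exact absurd this (by decide)
  obtain ⟨h3, h4⟩ := invol_of_conj h2 h1 hx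
  rcases exists_cl h3 h4 with h | h
  · exfalso
    obtain ⟨y, hy⟩ := trans_cl Tv_trans h
    apply F.vt (kk E y * g)⁻¹
    have : kk E (y * x * y⁻¹) = kk E xv := by rw [hy]; rfl
    rw [kk_mul, kk_mul, kk_inv, hx] at this
    rw [← this]
    group
  · exact ⟨x, h, hx⟩

omit [Fintype H] in
theorem sum_conj_eq [DecidableEq G] (k : G) (f : G → ℂ) : ∑ a : G, f (a * k * a⁻¹) =
    ∑ p : G, ((Finset.univ.filter (fun a => a * k * a⁻¹ = p)).card : ℂ) * f p := by
  rw [← Finset.sum_fiberwise Finset.univ (fun a => a * k * a⁻¹)]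
  refine Finset.sum_congr rfl fun p _ => ?_
  rw [Finset.sum_congr rfl (fun a ha => by rw [(Finset.mem_filter.1 ha).2]), Finset.sum_const,
    nsmul_eq_mul]

omit [Fintype H] in
theorem class_sum_aux (θ : Md → ℂ) (k k' : G) :
    ∑ a : G, ∑ b : G, YY3 E θ (a * k * a⁻¹ * (b * k' * b⁻¹)) = (Nat.card H : ℂ)⁻¹ * ((Nat.card G : ℂ) *
      ∑ a : G, ∑ b : G, extendByZero H (fun y => θ (E y)) (a * k * a⁻¹ * (b * k' * b⁻¹))) := by
  have e1 : ∀ a b : G, YY3 E θ (a * k * a⁻¹ * (b * k' * b⁻¹)) = (Nat.card H : ℂ)⁻¹ *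
      ∑ x : G, extendByZero H (fun y => θ (E y)) (x⁻¹ * (a * k * a⁻¹ * (b * k' * b⁻¹)) * x) :=
    fun a b => indFun_apply H _ _
  rw [Finset.sum_congr rfl fun a _ => Finset.sum_congr rfl fun b _ => e1 a b]
  simp only [← Finset.mul_sum]
  congr 1
  rw [sum3 Finset.univ Finset.univ (fun x a b =>
    extendByZero H (fun y => θ (E y)) (x⁻¹ * (a * k * a⁻¹ * (b * k' * b⁻¹)) * x))]
  have e2 : ∀ x : G, ∑ a : G, ∑ b : G,
      extendByZero H (fun y => θ (E y)) (x⁻¹ * (a * k * a⁻¹ * (b * k' * b⁻¹)) * x) =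
      ∑ a : G, ∑ b : G, extendByZero H (fun y => θ (E y)) (a * k * a⁻¹ * (b * k' * b⁻¹)) := by
    intro x
    rw [← Equiv.sum_comp (Equiv.mulLeft x)]
    refine Finset.sum_congr rfl fun a _ => ?_
    rw [← Equiv.sum_comp (Equiv.mulLeft x)]
    refine Finset.sum_congr rfl fun b _ => ?_
    congr 1
    simp only [Equiv.coe_mulLeft]
    group
  rw [Finset.sum_congr rfl fun x _ => e2 x, Finset.sum_const, Finset.card_univ, nsmul_eq_mul,
    Nat.card_eq_fintype_card]

omit [Fintype H] in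
/-- **the class sums** -/
theorem class_sum (F : Fus3 E) {θ : Md → ℂ} (hs : ∀ x, θ x ≠ 0 → DD x) {T T' : Finset Q}
    {x₀ x₀' : Md} (R : Rep E T x₀) (R' : Rep E T' x₀') :
    ∑ a : G, ∑ b : G, YY3 E θ (a * kk E x₀ * a⁻¹ * (b * kk E x₀' * b⁻¹)) =
      (Nat.card G : ℂ) / (Nat.card H : ℂ) *
      ((Nat.card (Subgroup.centralizer ({kk E x₀} : Set G)) : ℂ) *
        (Nat.card (Subgroup.centralizer ({kk E x₀'} : Set G)) : ℂ)) *
      ∑ x ∈ cl T, ∑ y ∈ cl T', θ (x * y) := by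
  classical
  have h2 : x₀ * x₀ = 1 := (mem_cl.1 R.mem).2
  have h2' : x₀' * x₀' = 1 := (mem_cl.1 R'.mem).2
  rw [class_sum_aux]
  obtain ⟨ex, hex⟩ : ∃ ex : G → ℂ, ex = extendByZero H (fun y => θ (E y)) := ⟨_, rfl⟩
  obtain ⟨N, hN⟩ : ∃ N : G → ℂ, N = fun p =>
    ((Finset.univ.filter (fun a => a * kk E x₀ * a⁻¹ = p)).card : ℂ) := ⟨_, rfl⟩
  obtain ⟨N', hN'⟩ : ∃ N' : G → ℂ, N' = fun p =>
    ((Finset.univ.filter (fun a => a * kk E x₀' * a⁻¹ = p)).card : ℂ) := ⟨_, rfl⟩
  have e1 : ∑ a : G, ∑ b : G, extendByZero H (fun y => θ (E y))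
      (a * kk E x₀ * a⁻¹ * (b * kk E x₀' * b⁻¹)) = ∑ p : G, ∑ q : G, N p * N' q * ex (p * q) := by
    rw [← hex, sum_conj_eq (kk E x₀) (fun p => ∑ b : G, ex (p * (b * kk E x₀' * b⁻¹)))]
    refine Finset.sum_congr rfl fun p _ => ?_
    rw [sum_conj_eq (kk E x₀') (fun q => ex (p * q)), Finset.mul_sum, hN, hN']
    refine Finset.sum_congr rfl fun q _ => ?_
    ring
  have hNz : ∀ p, N p ≠ 0 → ∃ g : G, g * kk E x₀ * g⁻¹ = p := by
    intro p hp
    rw [hN] at hp
    beta_reduce at hp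
    have hp' : (Finset.univ.filter (fun a => a * kk E x₀ * a⁻¹ = p)).card ≠ 0 := by exact_mod_cast hp
    obtain ⟨a, ha⟩ := Finset.card_ne_zero.1 hp'
    exact ⟨a, (Finset.mem_filter.1 ha).2⟩
  have hNz' : ∀ p, N' p ≠ 0 → ∃ g : G, g * kk E x₀' * g⁻¹ = p := by
    intro p hp
    rw [hN'] at hp
    beta_reduce at hp
    have hp' : (Finset.univ.filter (fun a => a * kk E x₀' * a⁻¹ = p)).card ≠ 0 := by exact_mod_cast hp
    obtain ⟨a, ha⟩ := Finset.card_ne_zero.1 hp'
    exact ⟨a, (Finset.mem_filter.1 ha).2⟩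
  have hsq : ∀ {x : Md} (_ : x * x = 1) (g : G), (g * kk E x * g⁻¹) * (g * kk E x * g⁻¹) = 1 := by
    intro x hx g
    calc g * kk E x * g⁻¹ * (g * kk E x * g⁻¹) = g * (kk E x * kk E x) * g⁻¹ := by group
      _ = 1 := by rw [kk_mul_self hx]; group
  -- the nonzero terms
  have key : ∀ p q : G, N p * N' q * ex (p * q) ≠ 0 → p ∈ (cl T).image (kk E) ∧ q ∈ (cl T').image (kk E) := by
    intro p q h
    obtain ⟨g, hg⟩ := hNz p (left_ne_zero_of_mul (left_ne_zero_of_mul h))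
    obtain ⟨g', hg'⟩ := hNz' q (right_ne_zero_of_mul (left_ne_zero_of_mul h))
    have h3 := right_ne_zero_of_mul h
    have hpq : p * q ∈ H := by
      by_contra hcon
      rw [hex] at h3
      exact h3 (extendByZero_of_notMem H _ hcon)
    rw [hex, extendByZero_of_mem H _ hpq] at h3
    have hpp : p * p = 1 := by rw [← hg]; exact hsq h2 g
    have hqq : q * q = 1 := by rw [← hg']; exact hsq h2' g'
    have hkk : kk E (E ⟨p * q, hpq⟩) = p * q := by
      unfold kk
      rw [MulEquiv.symm_apply_apply]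
    have hpH : p ∈ H := by
      apply F.fus _ (hs _ h3)
      rw [hkk]
      have : p * (p * q) * p⁻¹ = (p * q)⁻¹ := by
        have hp' : p⁻¹ = p := inv_eq_of_mul_eq_one_left hpp
        have hq' : q⁻¹ = q := inv_eq_of_mul_eq_one_left hqq
        rw [mul_inv_rev, hp', hq', ← mul_assoc, hpp, one_mul]
      rw [this]
      exact inv_mem hpq
    have hqH : q ∈ H := (Subgroup.mul_mem_cancel_left H hpH).1 hpq
    rw [← hg] at hpH
    rw [← hg'] at hqH
    obtain ⟨x, hx, hx'⟩ := R.fus g hpH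
    obtain ⟨y, hy, hy'⟩ := R'.fus g' hqH
    exact ⟨Finset.mem_image.2 ⟨x, hx, hx'.trans hg⟩, Finset.mem_image.2 ⟨y, hy, hy'.trans hg'⟩⟩
  have e2 : ∑ p : G, ∑ q : G, N p * N' q * ex (p * q) =
      ∑ x ∈ cl T, ∑ y ∈ cl T', N (kk E x) * N' (kk E y) * ex (kk E x * kk E y) := by
    rw [← Finset.sum_subset (Finset.subset_univ ((cl T).image (kk E)))]
    · rw [Finset.sum_image (fun x _ y _ h => kk_injective E h)]
      refine Finset.sum_congr rfl fun x _ => ?_
      rw [← Finset.sum_subset (Finset.subset_univ ((cl T').image (kk E)))]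
      · rw [Finset.sum_image (fun x _ y _ h => kk_injective E h)]
      · intro q _ hq
        by_contra hcon
        exact hq (key _ _ hcon).2
    · intro p _ hp
      apply Finset.sum_eq_zero
      intro q _
      by_contra hcon
      exact hp (key _ _ hcon).1
  have hNx : ∀ x ∈ cl T, N (kk E x) = (Nat.card (Subgroup.centralizer ({kk E x₀} : Set G)) : ℂ) := by
    intro x hx
    obtain ⟨y, hy⟩ := R.trans x hx
    have h5 : kk E x = (kk E y)⁻¹ * kk E x₀ * ((kk E y)⁻¹)⁻¹ := by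
      rw [← hy, kk_mul, kk_mul, kk_inv]; group
    rw [hN, h5]
    beta_reduce
    exact_mod_cast card_conj (kk E x₀) (kk E y)⁻¹
  have hNx' : ∀ x ∈ cl T', N' (kk E x) = (Nat.card (Subgroup.centralizer ({kk E x₀'} : Set G)) : ℂ) := by
    intro x hx
    obtain ⟨y, hy⟩ := R'.trans x hx
    have h5 : kk E x = (kk E y)⁻¹ * kk E x₀' * ((kk E y)⁻¹)⁻¹ := by
      rw [← hy, kk_mul, kk_mul, kk_inv]; group
    rw [hN', h5]
    beta_reduce
    exact_mod_cast card_conj (kk E x₀') (kk E y)⁻¹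
  have hexx : ∀ x y : Md, ex (kk E x * kk E y) = θ (x * y) := by
    intro x y
    rw [← kk_mul, hex, extendByZero_of_mem H _ (kk_mem E _)]
    congr 1
    apply E.symm.injective
    rw [MulEquiv.symm_apply_apply]
    rfl
  rw [e1, e2]
  have e3 : ∑ x ∈ cl T, ∑ y ∈ cl T', N (kk E x) * N' (kk E y) * ex (kk E x * kk E y) =
      ((Nat.card (Subgroup.centralizer ({kk E x₀} : Set G)) : ℂ) *
        (Nat.card (Subgroup.centralizer ({kk E x₀'} : Set G)) : ℂ)) *
        ∑ x ∈ cl T, ∑ y ∈ cl T', θ (x * y) := by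
    rw [Finset.mul_sum]
    refine Finset.sum_congr rfl fun x hx => ?_
    rw [Finset.mul_sum]
    refine Finset.sum_congr rfl fun y hy => ?_
    rw [hNx x hx, hNx' y hy, hexx]
  rw [e3]
  ring

end

end Cfsg.Agent.H431.Alt
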