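import Mathlib
import Cfsg.Agent.H431.BlockModel
import Cfsg.Agent.S0157
import Cfsg.Agent.Characters.Linear
import Cfsg.Agent.OddOrderCharacters.VChar

/-!
# Class functions of `3^3 : 2^2`
-/

set_option autoImplicit false

open Cfsg

namespace Cfsg.Agent.H431.Block

open Equiv Equiv.Perm Cfsg.Agent.Characters.Core Cfsg.Agent.OddOrderCharacters.VChar

open scoped ComplexConjugate

/-- the sign as a complex number -/
def sg (x : Perm (Fin 3)) : ℂ := ((sign x : ℤ) : ℂ)

/-- three times the indicator function of the 3-cycles, as an integer -/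
def phZ (x : Perm (Fin 3)) : ℤ := if x ≠ 1 ∧ sign x = 1 then 3 else 0

/-- three times the indicator function of the 3-cycles -/
def ph (x : Perm (Fin 3)) : ℂ := (phZ x : ℂ)

theorem phZ_eq : ∀ x : Perm (Fin 3),
    phZ x = 2 + (sign x : ℤ) - ((Finset.univ.filter (fun i => x i = i)).card : ℤ) := by
  decide

theorem sum_phZ : ∑ x : Perm (Fin 3), phZ x = 6 := by decide
theorem sum_sign : ∑ x : Perm (Fin 3), (sign x : ℤ) = 0 := by decide
theorem sum_phZ_sign : ∑ x : Perm (Fin 3), phZ x * (sign x : ℤ) = 6 := by decide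
theorem sum_phZ_sq : ∑ x : Perm (Fin 3), phZ x * phZ x = 18 := by decide

/-- the sum over the model group of a product function, twice -/
theorem sum_K (a : Fin 3 → Perm (Fin 3) → ℂ) [Fintype K] :
    2 * ∑ k : K, ∏ i, a i ((k : Fin 3 → Perm (Fin 3)) i) =
      ∏ i, ∑ x, a i x + ∏ i, ∑ x, a i x * sg x := by
  classical
  have h1 : ∑ k : K, ∏ i, a i ((k : Fin 3 → Perm (Fin 3)) i) =
      ∑ f : Fin 3 → Perm (Fin 3), if f ∈ K then ∏ i, a i (f i) else 0 := by
    rw [← Finset.sum_filter]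
    symm
    apply Finset.sum_subtype
    intro x
    simp
  have h2 : ∀ f : Fin 3 → Perm (Fin 3), 2 * (if f ∈ K then ∏ i, a i (f i) else 0) =
      ∏ i, a i (f i) + ∏ i, a i (f i) * sg (f i) := by
    intro f
    rw [Finset.prod_mul_distrib]
    have h3 : ∏ i, sg (f i) = (((sign (f 0) * sign (f 1) * sign (f 2) : ℤˣ) : ℤ) : ℂ) := by
      rw [Fin.prod_univ_three]
      simp [sg]
    rw [h3]
    by_cases hf : f ∈ K
    · rw [if_pos hf, mem_K.1 hf]
      simp
      ring
    · rw [if_neg hf]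
      rcases Int.units_eq_one_or (sign (f 0) * sign (f 1) * sign (f 2)) with h | h
      · exact absurd (mem_K.2 h) hf
      · rw [h]
        simp
  rw [h1, Finset.mul_sum]
  simp_rw [h2]
  rw [Finset.sum_add_distrib]
  congr 1
  · rw [Finset.prod_univ_sum]
    simp
  · rw [Finset.prod_univ_sum]
    simp

/-- integral form of `sum_K` -/
theorem sum_KZ (a : Fin 3 → Perm (Fin 3) → ℤ) [Fintype K] :
    2 * ∑ k : K, (((∏ i, a i ((k : Fin 3 → Perm (Fin 3)) i) : ℤ)) : ℂ) =
      ((∏ i, ∑ x, a i x + ∏ i, ∑ x, a i x * (sign x : ℤ) : ℤ) : ℂ) := by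
  have h := sum_K (fun i x => (a i x : ℂ))
  push_cast
  rw [h]
  simp [sg]

theorem card_K : Nat.card K = 108 := by
  classical
  have := Fintype.ofFinite K
  have h := sum_KZ (fun _ _ => 1)
  have e : (∏ i : Fin 3, ∑ x : Perm (Fin 3), (1 : ℤ) + ∏ i : Fin 3, ∑ x : Perm (Fin 3), (1 : ℤ) * (sign x : ℤ)) = 216 := by
    decide
  rw [e] at h
  simp only [Finset.prod_const_one, Int.cast_one, Finset.sum_const, Finset.card_univ, nsmul_eq_mul,
    mul_one] at h
  rw [Nat.card_eq_fintype_card]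
  have h2 : (((2 * Fintype.card K : ℕ)) : ℂ) = ((216 : ℕ) : ℂ) := by
    push_cast
    push_cast at h
    exact h
  have h3 : 2 * Fintype.card K = 216 := by exact_mod_cast h2
  omega

section

variable {X : Type*} [Group X] (E : X ≃* K)

/-- the `i`-th component -/
def cmp (i : Fin 3) : X →* Perm (Fin 3) :=
  (Pi.evalMonoidHom (fun _ : Fin 3 => Perm (Fin 3)) i).comp (K.subtype.comp E.toMonoidHom)

theorem cmp_apply (i : Fin 3) (x : X) : cmp E i x = (E x : Fin 3 → Perm (Fin 3)) i := rfl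

theorem sign_cmp (x : X) : sign (cmp E 0 x) * sign (cmp E 1 x) * sign (cmp E 2 x) = 1 :=
  mem_K.1 (E x).2

/-- product functions -/
def pf (a : Fin 3 → Perm (Fin 3) → ℤ) (x : X) : ℂ := ((∏ i, a i (cmp E i x) : ℤ) : ℂ)

theorem classInner_pf [Fintype X] (a b : Fin 3 → Perm (Fin 3) → ℤ) :
    216 * classInner (pf E a) (pf E b) =
      ((∏ i, ∑ x, a i x * b i x + ∏ i, ∑ x, a i x * b i x * (sign x : ℤ) : ℤ) : ℂ) := by
  classical
  have := Fintype.ofFinite K
  rw [classInner_def, Nat.card_congr E.toEquiv, card_K]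
  have h1 : ∑ g : X, pf E a g * conj (pf E b g) =
      ∑ k : K, (((∏ i, (a i ((k : Fin 3 → Perm (Fin 3)) i) * b i ((k : Fin 3 → Perm (Fin 3)) i)) : ℤ)) : ℂ) := by
    rw [← Equiv.sum_comp E.toEquiv]
    refine Finset.sum_congr rfl fun g _ => ?_
    rw [pf, pf, map_intCast, Finset.prod_mul_distrib]
    push_cast
    rfl
  have h2 := sum_KZ (fun i x => a i x * b i x)
  rw [h1, ← h2]
  push_cast
  ring

/-- the coordinates of `φ_i` -/
def aph (i c : Fin 3) (x : Perm (Fin 3)) : ℤ := if c = i then phZ x else 1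

/-- the coordinates of `ψ_i` -/
def aps (i c : Fin 3) (x : Perm (Fin 3)) : ℤ :=
  if c = i then phZ x else if c = i + 1 then (sign x : ℤ) else 1

/-- the coordinates of the constant 1 -/
def aone (_ : Fin 3) (_ : Perm (Fin 3)) : ℤ := 1

/-- the coordinates of the function with value 4 on the coset of `v_i` -/
def ath (i c : Fin 3) (x : Perm (Fin 3)) : ℤ :=
  if c = i then 1 + (sign x : ℤ) else if c = i + 1 then 1 - (sign x : ℤ) else 1

theorem v_phi_phi : ∀ i : Fin 3, (∏ c, ∑ x, aph i c x * aph i c x +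
    ∏ c, ∑ x, aph i c x * aph i c x * (sign x : ℤ) : ℤ) = 648 := by decide
theorem v_phi_phi' : ∀ i j : Fin 3, i ≠ j → (∏ c, ∑ x, aph i c x * aph j c x +
    ∏ c, ∑ x, aph i c x * aph j c x * (sign x : ℤ) : ℤ) = 216 := by decide
theorem v_phi_one : ∀ i : Fin 3, (∏ c, ∑ x, aph i c x * aone c x +
    ∏ c, ∑ x, aph i c x * aone c x * (sign x : ℤ) : ℤ) = 216 := by decide
theorem v_psi_psi : ∀ i : Fin 3, (∏ c, ∑ x, aps i c x * aps i c x +
    ∏ c, ∑ x, aps i c x * aps i c x * (sign x : ℤ) : ℤ) = 648 := by decide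
theorem v_psi_one : ∀ i : Fin 3, (∏ c, ∑ x, aps i c x * aone c x +
    ∏ c, ∑ x, aps i c x * aone c x * (sign x : ℤ) : ℤ) = 0 := by decide
theorem v_phi_psi : ∀ i : Fin 3, (∏ c, ∑ x, aph i c x * aps i c x +
    ∏ c, ∑ x, aph i c x * aps i c x * (sign x : ℤ) : ℤ) = 0 := by decide
theorem v_phi_psi' : ∀ i j : Fin 3, i ≠ j → (∏ c, ∑ x, aph i c x * aps j c x +
    ∏ c, ∑ x, aph i c x * aps j c x * (sign x : ℤ) : ℤ) = 216 := by decide
theorem v_th_one : ∀ i : Fin 3, (∏ c, ∑ x, ath i c x * aone c x +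
    ∏ c, ∑ x, ath i c x * aone c x * (sign x : ℤ) : ℤ) = 216 := by decide

end

end Cfsg.Agent.H431.Block
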